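import Cfsg.Agent.Lib.Helper24.BlockSat
import Cfsg.Agent.Lib.Helper26.FusNormal3

/-!
# Nilpotent blocks and the inner fusion system
-/

set_option autoImplicit false

namespace Cfsg.Agent.Lib.Helper24

open Cfsg Cfsg.Agent.Lib.Helper2 Cfsg.Agent.Lib.Helper6
open scoped ComplexConjugate Classical

attribute [local instance] irrFintype

section

variable {G : Type*} [Group G] [Fintype G] {M : Ideal AlgInt} {p : ℕ}

/-- the fusion system of a nilpotent block is inner -/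
theorem eq_inner_of_nilpotent (hM : IsPModular p M) {B : Set (IrrCharacter G)} {P : Subgroup G}
    {e : Set (IrrCharacter (cz P))} {F : FusionSystem P}
    (hF : IsBlockFusionSystemOn p M B P e F) (hnil : IsNilpotentBlock p M B) :
    F = innerFusionSystem P := by
  have : Fact p.Prime := ⟨hM.1⟩
  have hmax := hF.1
  apply Helper26.eq_inner_of_aut_pGroups hmax.1.1.1 (isSaturated_blockFusion hM hF)
  intro Q hQP
  obtain ⟨f, hle⟩ := exists_PLE hM ⟨P, e⟩ hmax.1.1 _ Q hQP rfl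
  have hQf : IsBrauerPairOf p M B Q f := (PLE.isBrauerPairOf_iff hM hle hmax.1.2.1).mp hmax.1
  rw [autGroup_blockFusion hM hF hle]
  rintro ⟨α, hα⟩
  obtain ⟨t, ht, h⟩ := Helper26.mem_autInducedBy_iff.mp hα
  obtain ⟨t₁, y, hty, -, ⟨k, hk⟩, hy⟩ := exists_isPPart hM.1
    (⟨t, ht⟩ : (Subgroup.normalizer (Q : Set G) ⊓ stabSub (cz Q) f : Subgroup G))
  have h3 : (t₁ : G) * y = t := congrArg Subtype.val hty
  have hyc : (y : G) ∈ cz Q :=
    hnil.2 Q f hQf y y.2.1 y.2.2 (by unfold IsPRegular; rw [Subgroup.orderOf_coe]; exact hy)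
  have h4 : ∀ x ∈ Q, Helper26.aev α x = (t₁ : G) * x * (t₁ : G)⁻¹ := by
    intro x hx
    rw [h x hx, ← h3]
    have h5 : (y : G) * x * (y : G)⁻¹ = x := by
      rw [← (Subgroup.mem_centralizer_iff.mp hyc) x hx]
      group
    calc (t₁ : G) * y * x * ((t₁ : G) * y)⁻¹ = t₁ * ((y : G) * x * (y : G)⁻¹) * (t₁ : G)⁻¹ := by
          group
      _ = _ := by rw [h5]
  refine ⟨k, Subtype.ext ?_⟩
  show α ^ p ^ k = 1
  apply Helper26.aut_ext
  intro x hx
  have h6 : (t₁ : G) ^ p ^ k = 1 := by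
    rw [← hk, ← Subgroup.orderOf_coe]
    exact pow_orderOf_eq_one _
  rw [Helper26.aev_pow_conj h4 _ x hx, h6, Helper26.aev_one hx]
  simp

omit [Fintype G] in
/-- a `p`-regular element acting on `Q` like an element of `p`-power order centralizes `Q` -/
theorem mem_cz_of_conj_eq (hp : p.Prime) {Q : Subgroup G} {x a : G} (hx : ¬ p ∣ orderOf x) {k : ℕ}
    (ha : a ^ p ^ k = 1) (hxQ : ∀ u ∈ Q, x * u * x⁻¹ ∈ Q)
    (h : ∀ u ∈ Q, x * u * x⁻¹ = a * u * a⁻¹) : x ∈ cz Q := by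
  have h1 : ∀ i : ℕ, ∀ u ∈ Q, x ^ i * u * (x ^ i)⁻¹ = a ^ i * u * (a ^ i)⁻¹ := by
    intro i
    induction i with
    | zero => intro u _; simp
    | succ i ih =>
      intro u hu
      have e1 : x ^ (i + 1) * u * (x ^ (i + 1))⁻¹ = x ^ i * (x * u * x⁻¹) * (x ^ i)⁻¹ := by
        rw [pow_succ]; group
      have e2 : a ^ (i + 1) * u * (a ^ (i + 1))⁻¹ = a ^ i * (a * u * a⁻¹) * (a ^ i)⁻¹ := by
        rw [pow_succ]; group
      rw [e1, e2, ih _ (hxQ u hu), h u hu]
  have hcop : Nat.Coprime (orderOf x) (p ^ k) :=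
    Nat.Coprime.pow_right k ((Nat.Prime.coprime_iff_not_dvd hp).mpr hx).symm
  obtain ⟨i, hi1, hi2⟩ := Nat.chineseRemainder hcop 1 0
  have hxi : x ^ i = x := by
    have := pow_eq_pow_iff_modEq.mpr hi1
    rwa [pow_one] at this
  have hai : a ^ i = 1 := by
    obtain ⟨m, hm⟩ := (Nat.modEq_zero_iff_dvd.mp hi2)
    rw [hm, pow_mul, ha, one_pow]
  rw [Subgroup.mem_centralizer_iff]
  intro u hu
  have h2 := h1 i u hu
  rw [hxi, hai] at h2
  simp only [one_mul, inv_one, mul_one] at h2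
  calc u * x = (x * u * x⁻¹) * x := by rw [h2]
    _ = x * u := by group

theorem nilpotent_of_inner (hM : IsPModular p M) {B : Set (IrrCharacter G)} {P : Subgroup G}
    {e : Set (IrrCharacter (cz P))} {F : FusionSystem P}
    (hF : IsBlockFusionSystemOn p M B P e F)
    (h : ∀ Q : Subgroup G, F.Hom Q = (innerFusionSystem P).Hom Q) : IsNilpotentBlock p M B := by
  have hmax := hF.1
  refine ⟨hmax.1.2.1, fun Q f hQf x hxQ hxf hreg => ?_⟩
  obtain ⟨y, hy⟩ := exists_conj_le_maximal hM hmax hQf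
  have h1 := cjIdx_conj_eq_self (cjIdx_eq_self_iff.mpr ⟨hxQ, hxf⟩) y
  obtain ⟨h2, h3⟩ := cjIdx_eq_self_iff.mp h1
  obtain ⟨Q', hQ'⟩ : ∃ Q' : Subgroup G, Q' = Q.map (MulAut.conj y).toMonoidHom := ⟨_, rfl⟩
  have h4 : (MulAut.conj (y * x * y⁻¹)).toMonoidHom.comp
      (Q.map (MulAut.conj y).toMonoidHom).subtype ∈ F.Hom (Q.map (MulAut.conj y).toMonoidHom) := by
    rw [blockFusion_mem_iff hM hF hy]
    refine ⟨y * x * y⁻¹, fun u => rfl, ?_⟩
    change PLE p M (cjIdx (y * x * y⁻¹) (cjIdx y ⟨Q, f⟩)) ⟨P, e⟩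
    rw [h1]
    exact hy
  rw [h] at h4
  obtain ⟨-, a, ha, h5⟩ := h4
  obtain ⟨k, hk⟩ := hmax.1.1.1 ⟨a, ha⟩
  have hk' : a ^ p ^ k = 1 := congrArg Subtype.val hk
  have hreg' : ¬ p ∣ orderOf (y * x * y⁻¹) := by
    have : orderOf (y * x * y⁻¹) = orderOf x := by
      have := (MulAut.conj y).orderOf_eq x
      rwa [MulAut.conj_apply] at this
    rw [this]
    exact hreg
  have h6 : y * x * y⁻¹ ∈ cz (Q.map (MulAut.conj y).toMonoidHom) :=
    mem_cz_of_conj_eq hM.1 hreg' hk' (fun u hu => Helper26.conj_mem_of_normalizer h2 hu)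
      (fun u hu => h5 ⟨u, hu⟩)
  have h7 := (isConjSub_cz_map Q y _).mp h6
  have h8 : y⁻¹ * (y * x * y⁻¹) * y = x := by group
  rwa [h8] at h7

omit [Fintype G] in
theorem cz_sup (Q R : Subgroup G) : cz (Q ⊔ R) = cz Q ⊓ cz R := by
  ext g
  rw [Subgroup.mem_inf, ← le_cen_iff, ← le_cen_iff, ← le_cen_iff, sup_le_iff]

omit [Fintype G] in
theorem mem_normalizer_sup {Q R : Subgroup G} {x : G} (hQ : x ∈ Subgroup.normalizer (Q : Set G))
    (hR : x ∈ Subgroup.normalizer (R : Set G)) : x ∈ Subgroup.normalizer ((Q ⊔ R : Subgroup G) : Set G) := by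
  have h1 := (isConjSub_of_mem_normalizer hQ).eq_map
  have h2 := (isConjSub_of_mem_normalizer hR).eq_map
  have h3 := isConjSub_map x (Q ⊔ R)
  rw [Subgroup.map_sup, ← h1, ← h2] at h3
  exact h3.mem_normalizer

/-- a Brauer pair `(R', g')` of the block `f` of `C_G(Q)` gives the Brauer pair `(Q R, g)` of `G`
above `(Q, f)` -/
theorem normalSubpair_of_centralizer_pair {Q : Subgroup G} {f : Set (IrrCharacter (cz Q))}
    (hQf : IsBrauerPair p M Q f) {R' : Subgroup (cz Q)} {g' : Set (IrrCharacter (cz R'))}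
    (h : IsBrauerPairOf p M f R' g') :
    ∃ hc : IsCopy (cz R') (cz (Q ⊔ R'.map (cz Q).subtype)),
      IsNormalSubpair p M Q f (Q ⊔ R'.map (cz Q).subtype) (upSet hc g') := by
  have hcopy := isCopy_map R'
  have hRC : R'.map (cz Q).subtype ≤ cz Q := Subgroup.map_subtype_le _
  have hc : IsCopy (cz R') (cz (Q ⊔ R'.map (cz Q).subtype)) := by
    intro x
    rw [cz_sup, Subgroup.mem_inf]
    constructor
    · rintro ⟨h1, h2⟩
      exact ⟨h1, (hcopy.mem_centralizer_iff ⟨x, h1⟩).mpr h2⟩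
    · rintro ⟨h1, h2⟩
      exact ⟨h1, (hcopy.mem_centralizer_iff ⟨x, h1⟩).mp h2⟩
  refine ⟨hc, hQf, ⟨?_, (isPBlock_upSet_iff hc).mpr h.1.2⟩, le_sup_left,
    sup_le Subgroup.le_normalizer (hRC.trans (Subgroup.centralizer_le_normalizer _)), ?_, ?_⟩
  · rw [sup_comm]
    exact IsPGroup.to_sup_of_normal_right' (hcopy.isPGroup_iff.mp h.1.1) hQf.1
      (hRC.trans (Subgroup.centralizer_le_normalizer _))
  · exact fun x hx => (sup_le (le_stabSub_cz Q f) (hRC.trans (le_stabSub _ _)) :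
      Q ⊔ R'.map (cz Q).subtype ≤ stabSub (cz Q) f) hx
  · rw [occurs_up_iff hc]
    have e3 : (fun x : cz Q => subgroupBlockCoeff (cz Q) f x) = blockCoeff f := by
      ext x
      exact sbc_coe _ f x
    rw [e3]
    exact h.2.2

/-- the local blocks of a nilpotent block are nilpotent -/
theorem nilpotent_centralizer_block (hM : IsPModular p M) {B : Set (IrrCharacter G)}
    (hnil : IsNilpotentBlock p M B) {Q : Subgroup G} {f : Set (IrrCharacter (cz Q))}
    (hQf : IsBrauerPairOf p M B Q f) : IsNilpotentBlock p M f := by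
  refine ⟨hQf.1.2, fun R' g' h x hxN hxst hreg => ?_⟩
  obtain ⟨hc, hn⟩ := normalSubpair_of_centralizer_pair hQf.1 h
  have hSg := (isBrauerPairOf_iff_of_normalSubpair hM hn hQf.2.1).mpr hQf
  have h1 := hnil.2 _ _ hSg (x : G)
    (mem_normalizer_sup (Subgroup.centralizer_le_normalizer _ x.2)
      (((isCopy_map R').mem_normalizer_iff x).mp hxN))
    ((stabilizesBlock_upSet_iff hc x).mpr hxst)
    (by unfold IsPRegular at hreg ⊢; rwa [Subgroup.orderOf_coe])
  exact (hc.coe_mem_iff x).mp h1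

omit [Fintype G] in
theorem isFullyCentralized_inner {P Q : Subgroup G} (hQP : Q ≤ P) {F : FusionSystem P}
    (hF : F = innerFusionSystem P) : F.IsFullyCentralized Q := by
  refine ⟨hQP, ?_⟩
  rintro Q' ⟨φ, hφ, rfl⟩
  rw [hF] at hφ
  obtain ⟨-, a, ha, h⟩ := hφ
  have h1 : φ.range = Q.map (MulAut.conj a).toMonoidHom := by
    ext y
    constructor
    · rintro ⟨u, rfl⟩
      exact ⟨u, u.2, by rw [h]; rfl⟩
    · rintro ⟨u, hu, rfl⟩
      exact ⟨⟨u, hu⟩, by rw [h]; rfl⟩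
  rw [h1]
  have h2 : IsConjSub a (P ⊓ cz Q) (P ⊓ cz (Q.map (MulAut.conj a).toMonoidHom)) := by
    intro g
    rw [Subgroup.mem_inf, Subgroup.mem_inf, isConjSub_cz_map Q a g,
      isConjSub_of_mem_normalizer (Subgroup.le_normalizer ha) g]
  exact h2.card_eq.le

theorem isDefectGroup_centralizer_of_nilpotent (hM : IsPModular p M) {B : Set (IrrCharacter G)}
    {P : Subgroup G} {e : Set (IrrCharacter (cz P))} (hmax : IsMaximalBrauerPair p M B P e)
    (hnil : IsNilpotentBlock p M B) {Q : Subgroup G} {f : Set (IrrCharacter (cz Q))}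
    (hle : SubpairLE p M Q f P e) :
    IsDefectGroup p M f ((P ⊓ cz Q).subgroupOf (cz Q)) := by
  obtain ⟨F, hF⟩ := exists_blockFusionSystem hM hmax
  exact (fullyCentralized_iff hM hF hle).mp
    (isFullyCentralized_inner (PLE.le hle) (eq_inner_of_nilpotent hM hF hnil))

end

end Cfsg.Agent.Lib.Helper24
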