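import Cfsg.Agent.Lib.Helper24.SylowAxiom
import Cfsg.Agent.Lib.Helper26.FusGroup

/-!
# The fusion system of a block exists and is saturated
-/

set_option autoImplicit false

namespace Cfsg.Agent.Lib.Helper24

open Cfsg Cfsg.Agent.Lib.Helper2 Cfsg.Agent.Lib.Helper6
open scoped ComplexConjugate Classical

attribute [local instance] irrFintype

section

variable {G : Type*} [Group G] [Fintype G] {M : Ideal AlgInt} {p : ℕ}

/-- the maps of the block fusion system, as total functions -/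
def BFMap (p : ℕ) (M : Ideal AlgInt) (b : BrauerPairIdx G) (Q : Subgroup G) (φ : G → G) : Prop :=
  ∃ (g : G) (f : Set (IrrCharacter (cz Q))), (∀ x ∈ Q, φ x = g * x * g⁻¹) ∧
    PLE p M ⟨Q, f⟩ b ∧ PLE p M (cjIdx g ⟨Q, f⟩) b

theorem cjIdx_eq_self_of_mem {P : Subgroup G} {e : Set (IrrCharacter (cz P))} {a : G}
    (ha : a ∈ P) : cjIdx a ⟨P, e⟩ = (⟨P, e⟩ : BrauerPairIdx G) :=
  cjIdx_eq_self_iff.mpr ⟨Subgroup.le_normalizer ha, le_stabSub_cz P e ha⟩

theorem exists_blockFusionSystem_aux (hM : IsPModular p M) {P : Subgroup G}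
    {e : Set (IrrCharacter (cz P))} (hPe : IsBrauerPair p M P e) :
    ∃ F : FusionSystem P, ∀ Q φ, Helper26.Map F Q φ ↔ BFMap p M ⟨P, e⟩ Q φ := by
  apply Helper26.exists_sys P (BFMap p M ⟨P, e⟩)
  · rintro Q φ ψ ⟨g, f, h1, h2, h3⟩ h
    exact ⟨g, f, fun x hx => by rw [← h x hx, h1 x hx], h2, h3⟩
  · rintro Q φ ⟨g, f, h1, -, -⟩ x hx y hy
    rw [h1 _ (Q.mul_mem hx hy), h1 x hx, h1 y hy]
    group
  · rintro Q φ ⟨g, f, -, h2, -⟩
    exact PLE.le h2
  · rintro Q φ ⟨g, f, h1, -, h3⟩ x hx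
    rw [h1 x hx]
    exact PLE.le h3 ⟨x, hx, rfl⟩
  · rintro Q φ ⟨g, f, h1, -, -⟩ x hx y hy hxy
    rw [h1 x hx, h1 y hy] at hxy
    exact mul_left_cancel (mul_right_cancel hxy)
  · intro Q a hQ ha
    obtain ⟨f, hf⟩ := exists_PLE hM ⟨P, e⟩ hPe _ Q hQ rfl
    refine ⟨a, f, fun x _ => rfl, hf, ?_⟩
    have := PLE_cjIdx a hf
    rwa [cjIdx_eq_self_of_mem ha] at this
  · rintro Q R φ ψ ⟨g, f, h1, h2, h3⟩ ⟨h, f', h1', h2', h3'⟩ hQR
    refine ⟨h * g, f, fun x hx => ?_, h2, ?_⟩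
    · rw [Function.comp_apply, h1' _ (hQR x hx), h1 x hx]
      group
    · have h4 : (cjIdx g ⟨Q, f⟩).1 ≤ R := by
        rintro _ ⟨x, hx, rfl⟩
        have := hQR x hx
        rwa [h1 x hx] at this
      have h5 : PLE p M (cjIdx g ⟨Q, f⟩) ⟨R, f'⟩ := PLE_of_PLE_of_le hM h3 h2' hPe h4
      rw [cjIdx_mul]
      exact (PLE_cjIdx h h5).trans h3'
  · rintro Q φ ⟨g, f, h1, h2, h3⟩
    have him : Helper26.im φ Q = Q.map (MulAut.conj g).toMonoidHom := by
      rw [← Helper26.im_cj]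
      exact Helper26.im_congr h1
    have hinj : Set.InjOn φ (Q : Set G) := by
      intro x hx y hy hxy
      rw [h1 x hx, h1 y hy] at hxy
      exact mul_left_cancel (mul_right_cancel hxy)
    rw [him]
    refine ⟨g⁻¹, conjBlock Q g f, ?_, h3, ?_⟩
    · rintro _ ⟨x, hx, rfl⟩
      have e1 : (MulAut.conj g).toMonoidHom x = φ x := (h1 x hx).symm
      rw [e1, Helper26.inv_apply' hinj hx, h1 x hx]
      group
    · have : cjIdx g⁻¹ (cjIdx g ⟨Q, f⟩) = ⟨Q, f⟩ := by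
        rw [← cjIdx_mul, inv_mul_cancel, cjIdx_one]
      change PLE p M (cjIdx g⁻¹ (cjIdx g ⟨Q, f⟩)) ⟨P, e⟩
      rw [this]
      exact h2

theorem exists_blockFusionSystem (hM : IsPModular p M) {B : Set (IrrCharacter G)}
    {P : Subgroup G} {e : Set (IrrCharacter (cz P))} (hmax : IsMaximalBrauerPair p M B P e) :
    ∃ F : FusionSystem P, IsBlockFusionSystemOn p M B P e F := by
  obtain ⟨F, hF⟩ := exists_blockFusionSystem_aux hM hmax.1.1
  refine ⟨F, hmax, fun Q φ => ?_⟩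
  rw [Helper26.mem_hom_iff_map, hF]
  constructor
  · rintro ⟨g, f, h1, h2, h3⟩
    exact ⟨PLE.le h2, g, fun u => by rw [← Helper26.ev_coe, h1 u u.2], PLE.le h3, f, h2, h3⟩
  · rintro ⟨-, g, h1, -, f, h2, h3⟩
    exact ⟨g, f, fun x hx => by rw [Helper26.ev_mem _ hx, h1], h2, h3⟩

/-- the maps of a block fusion system -/
theorem blockFusion_map_iff (hM : IsPModular p M) {B : Set (IrrCharacter G)} {P : Subgroup G}
    {e : Set (IrrCharacter (cz P))} {F : FusionSystem P}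
    (hF : IsBlockFusionSystemOn p M B P e F) {Q : Subgroup G} {f : Set (IrrCharacter (cz Q))}
    (hle : SubpairLE p M Q f P e) (φ : G → G) :
    Helper26.Map F Q φ ↔ ∃ g : G, (∀ x ∈ Q, φ x = g * x * g⁻¹) ∧
      PLE p M (cjIdx g ⟨Q, f⟩) ⟨P, e⟩ := by
  constructor
  · rintro ⟨ψ, hψ, h⟩
    obtain ⟨g, hg, hle'⟩ := (blockFusion_mem_iff hM hF hle ψ).mp hψ
    exact ⟨g, fun x hx => by rw [← h ⟨x, hx⟩, hg], hle'⟩
  · rintro ⟨g, hg, hle'⟩
    exact ⟨(MulAut.conj g).toMonoidHom.comp Q.subtype,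
      (blockFusion_mem_iff hM hF hle _).mpr ⟨g, fun u => rfl, hle'⟩, fun x => (hg x x.2).symm⟩

theorem cjIdx_eq_self_of_PLE_of_normalizer (hM : IsPModular p M) {b : BrauerPairIdx G}
    {Q : Subgroup G} {f : Set (IrrCharacter (cz Q))} (hle : PLE p M ⟨Q, f⟩ b) {g : G}
    (hg : g ∈ Subgroup.normalizer (Q : Set G)) (h : PLE p M (cjIdx g ⟨Q, f⟩) b) :
    cjIdx g ⟨Q, f⟩ = (⟨Q, f⟩ : BrauerPairIdx G) := by
  have hc := isConjSub_of_mem_normalizer hg
  obtain ⟨f', hf'⟩ : ∃ f' : Set (IrrCharacter (cz Q)), f' = conjSet hc.centralizer f := ⟨_, rfl⟩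
  have h2 : cjIdx g ⟨Q, f⟩ = ⟨Q, f'⟩ := cjIdx_eq hc (by rw [hf', sbc_conjSet])
  rw [h2] at h
  have h3 : f' = f := PLE_unique hM _ b Q f' f rfl h hle
  rw [h2, h3]

/-- `Aut_F(Q)` is induced by `N_G(Q, f)` -/
theorem autGroup_blockFusion (hM : IsPModular p M) {B : Set (IrrCharacter G)} {P : Subgroup G}
    {e : Set (IrrCharacter (cz P))} {F : FusionSystem P}
    (hF : IsBlockFusionSystemOn p M B P e F) {Q : Subgroup G} {f : Set (IrrCharacter (cz Q))}
    (hle : SubpairLE p M Q f P e) :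
    F.autGroup Q = autInducedBy (Subgroup.normalizer (Q : Set G) ⊓ stabSub (cz Q) f) Q := by
  ext α
  rw [Helper26.mem_autGroup_iff (PLE.le hle), Helper26.mem_autInducedBy_iff,
    blockFusion_map_iff hM hF hle]
  constructor
  · rintro ⟨g, hg, h⟩
    have hgN : g ∈ Subgroup.normalizer (Q : Set G) := Helper26.normalizer_of_aut hg
    exact ⟨g, ⟨hgN, (cjIdx_eq_self_iff.mp (cjIdx_eq_self_of_PLE_of_normalizer hM hle hgN h)).2⟩, hg⟩
  · rintro ⟨g, hg, h⟩
    refine ⟨g, h, ?_⟩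
    rw [cjIdx_eq_self_iff.mpr ⟨hg.1, hg.2⟩]
    exact hle

theorem isFullyAutomized_blockFusion (hM : IsPModular p M) {B : Set (IrrCharacter G)}
    {P : Subgroup G} {e : Set (IrrCharacter (cz P))} {F : FusionSystem P}
    (hF : IsBlockFusionSystemOn p M B P e F) : F.IsFullyAutomized p P := by
  have : Fact p.Prime := ⟨hM.1⟩
  have hmax := hF.1
  rw [Helper26.isFullyAutomized_iff, autGroup_blockFusion hM hF Relation.ReflTransGen.refl]
  refine ⟨le_rfl, ?_⟩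
  obtain ⟨T, hT⟩ : ∃ T : Subgroup G, T = Subgroup.normalizer (P : Set G) ⊓ stabSub (cz P) e :=
    ⟨_, rfl⟩
  rw [← hT]
  have hPT : P ≤ T := hT ▸ le_inf Subgroup.le_normalizer (le_stabSub_cz P e)
  obtain ⟨S, hS, hPS⟩ := Helper26.exists_isSylowIn_ge hPT hmax.1.1.1
  have hTN : T ≤ Subgroup.normalizer (P : Set G) := hT ▸ inf_le_left
  have h1 : Helper26.IsSylowIn p (FusionSystem.normalizerIn S P) (FusionSystem.normalizerIn T P) := by
    unfold FusionSystem.normalizerIn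
    rwa [inf_eq_left.mpr hTN, inf_eq_left.mpr (hS.le.trans hTN)]
  have h2 := Helper26.sylow_automizer_of_normalizer h1
  have h3 : autInducedBy S P = autInducedBy P P := by
    apply le_antisymm
    · intro α hα
      obtain ⟨s, hs, h⟩ := Helper26.mem_autInducedBy_iff.mp hα
      have h4 : s ∈ P ⊔ cz P := pSubgroup_stab_le hM hmax hS.isPGroup (hS.le.trans hTN)
        (hS.le.trans (hT ▸ inf_le_right)) hs
      rw [← SetLike.mem_coe, Subgroup.coe_mul_of_left_le_normalizer_right P (cz P)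
        (fun x hx => (isConjSub_of_mem_normalizer
          (Subgroup.le_normalizer hx)).centralizer.mem_normalizer)] at h4
      obtain ⟨a, ha, c, hc, rfl⟩ := h4
      refine Helper26.mem_autInducedBy_iff.mpr ⟨a, ha, fun x hx => ?_⟩
      rw [h x hx]
      have h5 : c * x * c⁻¹ = x := by
        rw [← (Subgroup.mem_centralizer_iff.mp hc) x hx]
        group
      calc a * c * x * (a * c)⁻¹ = a * (c * x * c⁻¹) * a⁻¹ := by group
        _ = a * x * a⁻¹ := by rw [h5]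
    · exact Helper26.autInducedBy_mono hPS
  rwa [h3] at h2

/-- If `N_P(Q)` is a defect group of the block of `N_G(Q, f)` with the idempotent of `f`, it is
also a defect group of the block of `N_P(Q) C_G(Q)` with this idempotent. -/
theorem isDefectGroup_of_le_pairStab (hM : IsPModular p M) {Q NP : Subgroup G}
    {f : Set (IrrCharacter (cz Q))} {fN : Set (IrrCharacter (cz NP))}
    (hn : IsNormalSubpair p M Q f NP fN) {T : Subgroup G} (hT : IsPairStab Q f T)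
    {F₁ : Set (IrrCharacter T)} (hF₁ : IsPBlock M F₁)
    (hFf₁ : subgroupBlockCoeff T F₁ = subgroupBlockCoeff (cz Q) f)
    (hD₁ : IsDefectGroup p M F₁ (NP.subgroupOf T)) (hNPT : NP ≤ T) {H : Subgroup G} (hHT : H ≤ T)
    (hNPH : NP ≤ H) {FH : Set (IrrCharacter H)} (hFH : IsPBlock M FH)
    (hFHf : subgroupBlockCoeff H FH = subgroupBlockCoeff (cz Q) f) :
    IsDefectGroup p M FH (NP.subgroupOf H) := by
  have : Fact p.Prime := ⟨hM.1⟩
  obtain ⟨u, hu, hunit⟩ := exists_unit_of_normalSubpair hM hn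
  obtain ⟨D, hD, hDle⟩ := exists_defectGroup_ge_of_unit hM hFH (u := u)
    (by rw [hFHf]; exact hunit) hn.2.1.1 hu
  obtain ⟨R, hR, g', hg'⟩ : ∃ R : Subgroup G, R = Q ⊔ D.map H.subtype ∧
      ∃ g' : Set (IrrCharacter (cz R)), IsNormalSubpair p M Q f R g' :=
    ⟨_, rfl, exists_overpair_of_defectGroup hM hn.1 (hHT.trans hT.le_normalizer)
      (hHT.trans hT.le_stabSub) hFHf hD⟩
  obtain ⟨u', hu', hunit'⟩ := exists_unit_of_normalSubpair hM hg'
  obtain ⟨D', hD', hD'le⟩ := exists_defectGroup_ge_of_unit hM hF₁ (u := u')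
    (by rw [hFf₁]; exact hunit') hg'.2.1.1 hu'
  have hRT : R ≤ T := hR ▸ sup_le hT.le ((Subgroup.map_subtype_le _).trans hHT)
  have c1 : Nat.card D' = Nat.card NP := by
    rw [IsDefectGroup.card_eq hM hF₁ hD', ← IsDefectGroup.card_eq hM hF₁ hD₁]
    exact Nat.card_congr (Subgroup.subgroupOfEquivOfLe hNPT).toEquiv
  have c2 : Nat.card D ≤ Nat.card R := by
    rw [← Subgroup.card_map_of_injective (Subgroup.subtype_injective H)]
    exact Subgroup.card_le_of_le (hR ▸ le_sup_right)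
  have c3 : Nat.card R ≤ Nat.card D' := by
    rw [← Nat.card_congr (Subgroup.subgroupOfEquivOfLe hRT).toEquiv]
    exact Subgroup.card_le_of_le hD'le
  have c4 : Nat.card (NP.subgroupOf H) = Nat.card NP :=
    Nat.card_congr (Subgroup.subgroupOfEquivOfLe hNPH).toEquiv
  rw [Subgroup.eq_of_le_of_card_ge hDle (by omega)]
  exact hD

theorem isReceptive_blockFusion (hM : IsPModular p M) {B : Set (IrrCharacter G)}
    {P : Subgroup G} {e : Set (IrrCharacter (cz P))} {F : FusionSystem P}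
    (hF : IsBlockFusionSystemOn p M B P e F) {Q : Subgroup G} (hQ : F.IsFullyNormalized Q) :
    F.IsReceptive Q := by
  have : Fact p.Prime := ⟨hM.1⟩
  have hp := IsPModular.isPrime hM
  have hmax := hF.1
  have hPe := hmax.1.1
  have hQP : Q ≤ P := hQ.1
  obtain ⟨f, hle⟩ := exists_PLE hM ⟨P, e⟩ hPe _ Q hQP rfl
  have hQf : IsBrauerPair p M Q f := PLE.isBrauerPair_left hle hPe
  obtain ⟨T, hT⟩ : ∃ T : Subgroup G, IsPairStab Q f T := ⟨_, isPairStab_inf Q f⟩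
  obtain ⟨F₁, hF₁, hFf₁⟩ := hT.exists_block hM hQf
  have hD₁ := (fullyNormalized_iff hM hF hle hT hF₁ hFf₁).mp hQ
  have hNPT := (exists_defectGroup_ge_normalizer hM hPe hle hT hF₁ hFf₁).1
  obtain ⟨NP, hNP⟩ : ∃ NP : Subgroup G, NP = P ⊓ Subgroup.normalizer (Q : Set G) := ⟨_, rfl⟩
  rw [← hNP] at hD₁ hNPT
  have hNPP : NP ≤ P := hNP ▸ inf_le_left
  have hNPN : NP ≤ Subgroup.normalizer (Q : Set G) := hNP ▸ inf_le_right
  have hQNP : Q ≤ NP := hNP ▸ le_inf hQP Subgroup.le_normalizer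
  obtain ⟨fN, hfN⟩ := exists_PLE hM ⟨P, e⟩ hPe _ NP hNPP rfl
  have hn₂ : IsNormalSubpair p M Q f NP fN :=
    rel_of_PLE_of_normal hM (PLE_of_PLE_of_le hM hle hfN hPe hQNP)
      (PLE.isBrauerPair_left hfN hPe) hNPN
  obtain ⟨H, hH⟩ : ∃ H : Subgroup G, H = NP ⊔ cz Q := ⟨_, rfl⟩
  have hHT : H ≤ T := hH ▸ sup_le hNPT hT.cz_le
  have hCH : cz Q ≤ H := hH ▸ le_sup_right
  have hNPH : NP ≤ H := hH ▸ le_sup_left
  obtain ⟨FH, hFH, hFHf⟩ := exists_block_of_stable hCH hQf.2 (hHT.trans hT.le_stabSub)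
    (fun F hF g hg => sbc_eq_zero_of_not_mem_cz hM hQf.1 (hQNP.trans hNPH)
      (hHT.trans hT.le_normalizer) hF hg)
  have hDH := isDefectGroup_of_le_pairStab hM hn₂ hT hF₁ hFf₁ hD₁ hNPT hHT hNPH hFH hFHf
  rw [Helper26.isReceptive_iff]
  refine ⟨hQP, fun R φ hφ him => ?_⟩
  have hRP : R ≤ P := hφ.le
  obtain ⟨fR, hfR⟩ := exists_PLE hM ⟨P, e⟩ hPe _ R hRP rfl
  obtain ⟨g, hg, hgle⟩ := (blockFusion_map_iff hM hF hfR φ).mp hφ
  have hgQ : IsConjSub g R Q := by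
    have h1 : Helper26.im φ R = R.map (MulAut.conj g).toMonoidHom := by
      rw [← Helper26.im_cj]
      exact Helper26.im_congr hg
    rw [← him, h1]
    exact isConjSub_map g R
  have hcj : cjIdx g ⟨R, fR⟩ = ⟨Q, f⟩ := by
    obtain ⟨f', hf'⟩ : ∃ f' : Set (IrrCharacter (cz Q)), f' = conjSet hgQ.centralizer fR :=
      ⟨_, rfl⟩
    have h2 : cjIdx g ⟨R, fR⟩ = ⟨Q, f'⟩ := cjIdx_eq hgQ (by rw [hf', sbc_conjSet])
    rw [h2] at hgle
    rw [h2, PLE_unique hM _ ⟨P, e⟩ Q f' f rfl hgle hle]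
  obtain ⟨K, hK⟩ : ∃ K : Subgroup G, K = Helper26.Nf P R φ := ⟨_, rfl⟩
  rw [← hK]
  have hKP : K ≤ P := hK ▸ Helper26.Nf_le_S
  have hKN : K ≤ Subgroup.normalizer (R : Set G) := hK ▸ Helper26.Nf_le_normalizer
  have hRK : R ≤ K := hK ▸ Helper26.le_Nf hφ
  obtain ⟨fK, hfK⟩ := exists_PLE hM ⟨P, e⟩ hPe _ K hKP rfl
  have hn₁' : NormalSubpairRel p M ⟨R, fR⟩ ⟨K, fK⟩ :=
    rel_of_PLE_of_normal hM (PLE_of_PLE_of_le hM hfR hfK hPe hRK)
      (PLE.isBrauerPair_left hfK hPe) hKN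
  have hn₁ := rel_cjIdx g hn₁'
  rw [hcj] at hn₁
  have hKH : (cjIdx g ⟨K, fK⟩).1 ≤ H := by
    rintro _ ⟨a, ha, rfl⟩
    show g * a * g⁻¹ ∈ H
    have ha' : a ∈ Helper26.Nf P R φ := by
      rw [← hK]
      exact ha
    obtain ⟨haP, haN, t, ht, h1⟩ := Helper26.mem_Nf_iff.mp ha'
    have h2 : ∀ y ∈ Q, (g * a * g⁻¹) * y * (g * a * g⁻¹)⁻¹ = t * y * t⁻¹ := by
      intro y hy
      have hx : g⁻¹ * y * g ∈ R := (hgQ y).mp hy
      have h3 := h1 _ hx
      rw [hg _ hx, hg _ (Helper26.conj_mem_of_normalizer haN hx)] at h3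
      have e1 : g * (g⁻¹ * y * g) * g⁻¹ = y := by group
      rw [e1] at h3
      rw [← h3]
      group
    have hgaN : g * a * g⁻¹ ∈ Subgroup.normalizer (Q : Set G) := by
      rw [hgQ.normalizer]
      have e1 : g⁻¹ * (g * a * g⁻¹) * g = a := by group
      rwa [e1]
    have htN : t ∈ Subgroup.normalizer (Q : Set G) := by
      apply Helper26.mem_normalizer_of_conj_finite
      intro y hy
      rw [← h2 y hy]
      exact Helper26.conj_mem_of_normalizer hgaN hy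
    have h4 : g * a * g⁻¹ = t * (t⁻¹ * (g * a * g⁻¹)) := by group
    rw [h4, hH]
    refine Subgroup.mul_mem_sup (hNP ▸ ⟨ht, htN⟩) ?_
    rw [Subgroup.mem_centralizer_iff]
    intro y hy
    have h5 := h2 y hy
    have h6 : (g * a * g⁻¹) * y = t * y * t⁻¹ * (g * a * g⁻¹) := by
      rw [← h5]; group
    calc y * (t⁻¹ * (g * a * g⁻¹)) = t⁻¹ * (t * y * t⁻¹ * (g * a * g⁻¹)) := by group
      _ = t⁻¹ * ((g * a * g⁻¹) * y) := by rw [h6]
      _ = t⁻¹ * (g * a * g⁻¹) * y := by group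
  obtain ⟨x, hx, hxle⟩ := exists_conj_le_of_defectGroup hM hCH hFH hFHf hn₁ hn₂ hKH hNPH hDH
  change PLE p M (cjIdx x (cjIdx g ⟨K, fK⟩)) ⟨NP, fN⟩ at hxle
  have hnorm : NP ≤ Subgroup.normalizer ((cz Q : Subgroup G) : Set G) := fun y hy =>
    (isConjSub_of_mem_normalizer (hNPN hy)).centralizer.mem_normalizer
  rw [hH, ← SetLike.mem_coe, Subgroup.coe_mul_of_left_le_normalizer_right NP (cz Q) hnorm] at hx
  obtain ⟨s, hs, c, hc, hsc⟩ := hx
  have hsc' : x = s * c := hsc.symm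
  have h5 : PLE p M (cjIdx (c * g) ⟨K, fK⟩) ⟨NP, fN⟩ := by
    have h6 := PLE_cjIdx s⁻¹ hxle
    rw [cjIdx_eq_self_of_mem (NP.inv_mem hs), ← cjIdx_mul, ← cjIdx_mul, hsc'] at h6
    have e1 : s⁻¹ * (s * c) * g = c * g := by group
    rwa [e1] at h6
  refine ⟨Helper26.cj (c * g), (blockFusion_map_iff hM hF hfK _).mpr
    ⟨c * g, fun _ _ => rfl, h5.trans hfN⟩, fun x hx => ?_⟩
  rw [hg x hx]
  show c * g * x * (c * g)⁻¹ = g * x * g⁻¹
  have h7 : g * x * g⁻¹ ∈ Q := by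
    rw [hgQ]
    have e1 : g⁻¹ * (g * x * g⁻¹) * g = x := by group
    rwa [e1]
  have h8 := (Subgroup.mem_centralizer_iff.mp hc) _ h7
  calc c * g * x * (c * g)⁻¹ = (c * (g * x * g⁻¹)) * c⁻¹ := by group
    _ = (g * x * g⁻¹) * c * c⁻¹ := by rw [h8]
    _ = g * x * g⁻¹ := by group

theorem isSaturated_blockFusion (hM : IsPModular p M) {B : Set (IrrCharacter G)}
    {P : Subgroup G} {e : Set (IrrCharacter (cz P))} {F : FusionSystem P}
    (hF : IsBlockFusionSystemOn p M B P e F) : F.IsSaturated p := by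
  have : Fact p.Prime := ⟨hM.1⟩
  exact (Helper26.isSaturated_iff' hF.1.1.1.1).mpr
    ⟨isFullyAutomized_blockFusion hM hF, fun _ hQ => isReceptive_blockFusion hM hF hQ⟩

end

end Cfsg.Agent.Lib.Helper24
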