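import Cfsg.Agent.Lib.Helper24.Codegree
import Cfsg.Agent.Lib.Helper24.Central
import Cfsg.Agent.Lib.Helper24.Constituent

/-!
# Groups with an irreducible character `χ` such that `|G| = p χ(1)`
-/

set_option autoImplicit false
open Cfsg

namespace Cfsg.Agent.Lib.Helper24

open Cfsg.Agent.Lib.Helper2 Cfsg.Agent.Lib.Helper6
open scoped ComplexConjugate

attribute [local instance] irrFintype

section

variable {G : Type*} [Group G] [Finite G]

omit [Finite G] in
theorem charDegree_one_fun : charDegree (fun _ : G => (1 : ℂ)) = 1 := by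
  simp [charDegree]

/-- `|G| = p χ(1)` forces `χ(1) < p`. -/
theorem degree_lt_of_card_eq (χ : IrrCharacter G) {p : ℕ} (hp : p.Prime)
    (h : Nat.card G = p * charDegree (χ : G → ℂ)) : charDegree (χ : G → ℂ) < p := by
  classical
  by_cases h1 : χ = ⟨fun _ => 1, isIrrCharacter_one⟩
  · rw [h1]
    show charDegree (fun _ : G => (1 : ℂ)) < p
    rw [charDegree_one_fun]
    exact hp.one_lt
  · have hs := sum_degree_sq_nat (G := G)
    rw [← Finset.add_sum_erase _ _ (Finset.mem_univ χ)] at hs
    have h2 : charDegree ((⟨fun _ => 1, isIrrCharacter_one⟩ : IrrCharacter G) : G → ℂ) ^ 2 ≤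
        ∑ x ∈ Finset.univ.erase χ, charDegree (x : G → ℂ) ^ 2 :=
      Finset.single_le_sum (f := fun x : IrrCharacter G => charDegree (x : G → ℂ) ^ 2)
        (fun _ _ => Nat.zero_le _)
        (Finset.mem_erase.mpr ⟨fun h => h1 h.symm, Finset.mem_univ _⟩)
    have h3 : charDegree ((⟨fun _ => 1, isIrrCharacter_one⟩ : IrrCharacter G) : G → ℂ) = 1 :=
      charDegree_one_fun
    rw [h3] at h2
    by_contra hlt
    push Not at hlt
    have h4 : p * charDegree (χ : G → ℂ) ≤ charDegree (χ : G → ℂ) ^ 2 := by
      rw [sq]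
      exact Nat.mul_le_mul_right _ hlt
    omega

theorem sylow_card_of_card_eq (χ : IrrCharacter G) {p : ℕ} [hp : Fact p.Prime]
    (h : Nat.card G = p * charDegree (χ : G → ℂ)) (P : Sylow p G) : Nat.card P = p := by
  have hlt := degree_lt_of_card_eq χ hp.out h
  have hpos := charDegree_pos χ.2
  rw [Sylow.card_eq_multiplicity, h, Nat.factorization_mul hp.out.ne_zero hpos.ne']
  have h1 : (charDegree (χ : G → ℂ)).factorization p = 0 :=
    Nat.factorization_eq_zero_of_not_dvd (Nat.not_dvd_of_pos_of_lt hpos hlt)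
  simp [h1, hp.out.factorization_self]

theorem sylow_normal_of_card_eq (χ : IrrCharacter G) {p : ℕ} [hp : Fact p.Prime]
    (h : Nat.card G = p * charDegree (χ : G → ℂ)) (P : Sylow p G) : (P : Subgroup G).Normal := by
  have hlt := degree_lt_of_card_eq χ hp.out h
  have hpos := charDegree_pos χ.2
  have hP := sylow_card_of_card_eq χ h P
  have hidx : (P : Subgroup G).index = charDegree (χ : G → ℂ) := by
    have := Subgroup.card_mul_index (P : Subgroup G)
    rw [hP, h] at this
    exact Nat.eq_of_mul_eq_mul_left hp.out.pos this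
  have h1 := card_sylow_modEq_one p G
  have h2 := P.card_dvd_index
  rw [hidx] at h2
  have h3 : Nat.card (Sylow p G) < p := lt_of_le_of_lt (Nat.le_of_dvd hpos h2) hlt
  have h4 : Nat.card (Sylow p G) = 1 := by
    unfold Nat.ModEq at h1
    rwa [Nat.mod_eq_of_lt h3, Nat.mod_eq_of_lt hp.out.one_lt] at h1
  rw [P.card_eq_index_normalizer, Subgroup.index_eq_one] at h4
  exact Subgroup.normalizer_eq_top_iff.mp h4

omit [Finite G] in
/-- The derived subgroup centralizes every cyclic normal subgroup. -/
theorem commutator_le_centralizer_of_cyclic (P : Subgroup G) [P.Normal] [hc : IsCyclic P] :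
    commutator G ≤ Subgroup.centralizer (P : Set G) := by
  let _ := (hc.mulAutMulEquiv _).toMonoidHom.commGroupOfInjective (hc.mulAutMulEquiv _).injective
  have h := Abelianization.commutator_subset_ker (MulAut.conjNormal (H := P))
  intro x hx
  have h1 := h hx
  rw [MonoidHom.mem_ker] at h1
  rw [Subgroup.mem_centralizer_iff]
  intro u hu
  have h2 : ((MulAut.conjNormal x : MulAut P) ⟨u, hu⟩ : G) = u := by
    rw [h1]; rfl
  rw [MulAut.conjNormal_apply] at h2
  have h3 : x * u = u * x := by
    calc x * u = x * u * x⁻¹ * x := by group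
      _ = u * x := by rw [h2]
  exact h3.symm

/-- If `|G| = p χ(1)`, the (normal) Sylow `p`-subgroup is self-centralizing. -/
theorem centralizer_eq_of_card_eq (χ : IrrCharacter G) {p : ℕ} [hp : Fact p.Prime]
    (h : Nat.card G = p * charDegree (χ : G → ℂ)) (P : Sylow p G) :
    Subgroup.centralizer ((P : Subgroup G) : Set G) = P := by
  classical
  cases nonempty_fintype G
  have hpos := charDegree_pos χ.2
  have hP := sylow_card_of_card_eq χ h P
  have hcyc : IsCyclic (P : Subgroup G) := isCyclic_of_prime_card hP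
  set C := Subgroup.centralizer ((P : Subgroup G) : Set G) with hC
  have hPC : (P : Subgroup G) ≤ C := by
    intro x hx
    rw [hC, Subgroup.mem_centralizer_iff]
    intro u hu
    have := hcyc.isMulCommutative.is_comm.comm (⟨u, hu⟩ : (P : Subgroup G)) ⟨x, hx⟩
    exact congrArg Subtype.val this
  have hcen : (P : Subgroup G).subgroupOf C ≤ Subgroup.center C := by
    intro x hx
    rw [Subgroup.mem_center_iff]
    intro y
    have hy : (y : G) ∈ Subgroup.centralizer ((P : Subgroup G) : Set G) := y.2
    rw [Subgroup.mem_centralizer_iff] at hy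
    have := hy x.1 (Subgroup.mem_subgroupOf.mp hx)
    exact Subtype.ext this.symm
  have hpcen : p ≤ Nat.card (Subgroup.center C) := by
    rw [← hP, ← Nat.card_congr (Subgroup.subgroupOfEquivOfLe hPC).toEquiv]
    exact Subgroup.card_le_of_le hcen
  have hres : IsCharacter C (fun c : C => (χ : G → ℂ) c) :=
    IsCharacter.restrict C (IsIrrCharacter.isCharacter χ.2)
  obtain ⟨ψ, hψ⟩ := exists_constituent hres (irr_one_ne_zero χ.2)
  have h1 := degree_le_index_mul C χ ψ hψ
  have h2 := card_center_mul_degree_sq_le ψ.2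
  have hψpos := charDegree_pos ψ.2
  have h3 := Subgroup.card_mul_index C
  rw [h] at h3
  set a := charDegree (χ : G → ℂ)
  set b := charDegree (ψ : C → ℂ)
  have h4 : Nat.card C * a ≤ p * b * a := by
    calc Nat.card C * a ≤ Nat.card C * (C.index * b) := Nat.mul_le_mul_left _ h1
      _ = (Nat.card C * C.index) * b := by ring
      _ = p * a * b := by rw [h3]
      _ = p * b * a := by ring
  have h5 : Nat.card C ≤ p * b := Nat.le_of_mul_le_mul_right h4 hpos
  have h6 : p * b ^ 2 ≤ p * b :=
    (Nat.mul_le_mul_right _ hpcen).trans (h2.trans h5)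
  have h7 : b ^ 2 ≤ b := Nat.le_of_mul_le_mul_left h6 hp.out.pos
  have h8 : b = 1 := by nlinarith
  rw [h8, mul_one] at h5
  exact (Subgroup.eq_of_le_of_card_ge hPC (by rw [hP]; exact h5)).symm

end

end Cfsg.Agent.Lib.Helper24
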