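import Cfsg.Agent.Lib.Helper24.Fong
import Cfsg.Agent.Lib.Helper24.FongReynolds2
import Cfsg.Agent.Lib.Helper23.Separated

/-!
# A graded Nakayama argument for central idempotents over an invariant block of a normal subgroup
-/

set_option autoImplicit false
set_option linter.unusedSectionVars false
set_option linter.unusedSimpArgs false

namespace Cfsg.Agent.Lib.Helper24

open Cfsg Cfsg.Agent.Lib.Helper2 Cfsg.Agent.Lib.Helper6
open scoped ComplexConjugate Classical

attribute [local instance] irrFintype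

section nak

variable {M : Ideal AlgInt}

/-- Nakayama's lemma for a finite family of functions. -/
theorem nakayama_fun [M.IsPrime] {ι X : Type*} [Fintype ι] (V : ι → X → ℂ)
    (h : ∀ i, ∃ m : ι → ℂ, (∀ j, MemLocalIdeal M (m j)) ∧ V i = ∑ j, m j • V j) (i : ι) :
    V i = 0 := by
  choose m hm hV using h
  obtain ⟨A, hA⟩ : ∃ A : Matrix ι ι ℂ, A = 1 - Matrix.of m := ⟨_, rfl⟩
  have h1 : ∀ i j, MemLocalRing M ((1 : Matrix ι ι ℂ) i j) := by
    intro i j
    rw [Matrix.one_apply]
    split_ifs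
    · exact memLocalRing_one
    · exact memLocalRing_zero
  have h3 : ∀ i j, MemLocalIdeal M (A i j - (1 : Matrix ι ι ℂ) i j) := by
    intro i j
    rw [hA, Matrix.sub_apply, Matrix.of_apply, sub_sub_cancel_left]
    exact MemLocalIdeal.neg (hm i j)
  have hdet : A.det ≠ 0 := by
    have h2 := Cfsg.Agent.Lib.Helper23.Separated.det_congr_mod (M := M) (X := A) (Y := 1)
      (fun i j => (memLocalRing_congr (h3 i j)).mpr (h1 i j)) h1 h3
    rw [Matrix.det_one] at h2
    intro h0
    rw [h0, zero_sub] at h2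
    exact not_memLocalIdeal_one (by simpa using MemLocalIdeal.neg h2)
  funext x
  have hv : A.mulVec (fun j => V j x) = 0 := by
    funext k
    have h4 := congrFun (hV k) x
    rw [Finset.sum_apply] at h4
    rw [hA, Matrix.sub_mulVec, Matrix.one_mulVec, Pi.sub_apply, Pi.zero_apply, h4, sub_eq_zero]
    rfl
  have h5 := Matrix.eq_zero_of_mulVec_eq_zero hdet hv
  exact congrFun h5 i

end nak

section graded

variable {G : Type*} [Group G] [Fintype G] {M : Ideal AlgInt} {p : ℕ} (N : Subgroup G)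

/-- the point mass at `g` -/
noncomputable def dl (g : G) : G → ℂ := Pi.single g 1

theorem dl_conv (g : G) (f : G → ℂ) (x : G) : conv (dl g) f x = f (g⁻¹ * x) := by
  rw [conv_apply, Finset.sum_eq_single g]
  · simp [dl]
  · intro b _ hb
    simp [dl, Pi.single_apply, hb]
  · intro h
    exact absurd (Finset.mem_univ g) h

theorem conv_dl (g : G) (f : G → ℂ) (x : G) : conv f (dl g) x = f (x * g⁻¹) := by
  rw [conv_apply', Finset.sum_eq_single g]
  · simp [dl]
  · intro b _ hb
    simp [dl, Pi.single_apply, hb]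
  · intro h
    exact absurd (Finset.mem_univ g) h

theorem dl_one_conv (f : G → ℂ) : conv (dl 1) f = f := by
  funext x
  rw [dl_conv]
  simp

theorem eq_sum_dl (x : G → ℂ) : x = ∑ g, x g • dl g := by
  funext y
  rw [Finset.sum_apply, Finset.sum_eq_single y]
  · simp [dl]
  · intro b _ hb
    simp [dl, Pi.single_apply, Ne.symm hb]
  · intro h
    exact absurd (Finset.mem_univ y) h

theorem dl_conv_eq_cjF_conv (g : G) (z : G → ℂ) : conv (dl g) z = conv (cjF g z) (dl g) := by
  funext x
  rw [dl_conv, conv_dl, cjF_apply]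
  congr 1
  group

theorem memLocalRing_dl [M.IsPrime] (g x : G) : MemLocalRing M (dl g x) := by
  rw [dl, Pi.single_apply]
  split_ifs
  · exact memLocalRing_one
  · exact memLocalRing_zero

variable [N.Normal]

/-- the component of `f` on the coset `q` of `N` -/
noncomputable def cmp (q : G ⧸ N) (f : G → ℂ) : G → ℂ :=
  fun g => if (QuotientGroup.mk g : G ⧸ N) = q then f g else 0

theorem cmp_apply (q : G ⧸ N) (f : G → ℂ) (g : G) :
    cmp N q f g = if (QuotientGroup.mk g : G ⧸ N) = q then f g else 0 := rfl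

theorem sum_cmp (f : G → ℂ) : ∑ q : G ⧸ N, cmp N q f = f := by
  funext g
  rw [Finset.sum_apply]
  simp [cmp_apply]

/-- homogeneous `N`-invariant elements with local integer coefficients -/
structure Hg (M : Ideal AlgInt) (q : G ⧸ N) (y : G → ℂ) : Prop where
  mem : ∀ g, MemLocalRing M (y g)
  supp : ∀ g, (QuotientGroup.mk g : G ⧸ N) ≠ q → y g = 0
  inv : ∀ n ∈ N, ∀ g, y (n * g * n⁻¹) = y g

variable {N}

theorem Hg.conv [M.IsPrime] {q q' : G ⧸ N} {y y' : G → ℂ} (h : Hg N M q y) (h' : Hg N M q' y') :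
    Hg N M (q * q') (conv y y') where
  mem := memLocalRing_conv h.mem h'.mem
  supp := by
    intro g hg
    rw [conv_apply]
    refine Finset.sum_eq_zero fun x _ => ?_
    by_cases hx : (QuotientGroup.mk x : G ⧸ N) = q
    · have : (QuotientGroup.mk (x⁻¹ * g) : G ⧸ N) ≠ q' := by
        intro h2
        apply hg
        rw [← hx, ← h2, ← QuotientGroup.mk_mul]
        congr 1
        group
      rw [h'.supp _ this, mul_zero]
    · rw [h.supp _ hx, zero_mul]
  inv := fun n hn g => conv_conj_inv (h.inv n hn) (h'.inv n hn) g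

theorem Hg.congr {q q' : G ⧸ N} {y : G → ℂ} (h : Hg N M q y) (hq : q = q') : Hg N M q' y :=
  hq ▸ h

theorem hg_cmp [M.IsPrime] {ε : G → ℂ} (hc : IsClassFunction G ε) (hS : ∀ g, MemLocalRing M (ε g))
    (q : G ⧸ N) : Hg N M q (cmp N q ε) where
  mem := by
    intro g
    rw [cmp_apply]
    split_ifs
    · exact hS g
    · exact memLocalRing_zero
  supp := by
    intro g hg
    rw [cmp_apply, if_neg hg]
  inv := by
    intro n hn g
    have h1 : (QuotientGroup.mk (n * g * n⁻¹) : G ⧸ N) = QuotientGroup.mk g := by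
      have hn1 : (QuotientGroup.mk n : G ⧸ N) = 1 := (QuotientGroup.eq_one_iff n).mpr hn
      rw [QuotientGroup.mk_mul, QuotientGroup.mk_mul, QuotientGroup.mk_inv, hn1]
      simp
    rw [cmp_apply, cmp_apply, h1, hc g n]

theorem hg_delta [M.IsPrime] : Hg N M 1 (delta : G → ℂ) where
  mem := by
    intro g
    rw [delta_apply]
    split_ifs
    · exact memLocalRing_one
    · exact memLocalRing_zero
  supp := by
    intro g hg
    rw [delta_apply, if_neg]
    rintro rfl
    exact hg rfl
  inv := by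
    intro n _ g
    rw [delta_apply, delta_apply]
    congr 1
    apply propext
    constructor
    · intro h
      have : g = n⁻¹ * (n * g * n⁻¹) * n := by group
      rw [this, h]
      group
    · rintro rfl
      group

end graded

section main

variable {G : Type*} [Group G] [Fintype G] {M : Ideal AlgInt} {p : ℕ} {N : Subgroup G} [N.Normal]

/-- the primitive central idempotent of `θ`, as a function on `G` -/
noncomputable def eT (θ : IrrCharacter N) : G → ℂ := subgroupBlockCoeff N {θ}

theorem ext_smul (c : ℂ) (f : N → ℂ) : extendByZero N (c • f) = c • extendByZero N f := by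
  funext g
  by_cases hg : g ∈ N
  · rw [Pi.smul_apply, extendByZero_mem N _ hg, extendByZero_mem N _ hg, Pi.smul_apply]
  · rw [Pi.smul_apply, extendByZero_not_mem N _ hg, extendByZero_not_mem N _ hg, smul_zero]

theorem eT_conv_ext (θ : IrrCharacter N) {w : N → ℂ} (hw : IsClassFunction N w) :
    conv (eT θ) (extendByZero N w) = om (θ : N → ℂ) w • eT θ := by
  have h1 : conv (coef (({θ} : Set (IrrCharacter N)).indicator 1)) w
      = om (θ : N → ℂ) w • coef (({θ} : Set (IrrCharacter N)).indicator 1) := by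
    conv_lhs => rw [eq_coef_om hw]
    rw [← coef_mul, ← coef_smul]
    congr 1
    funext χ
    by_cases hχ : χ = θ
    · subst hχ
      simp
    · simp [hχ]
  rw [eT, sbc_eq_ext, ← ext_conv, h1, ext_smul]

/-- restriction to `N` -/
def rsN (N : Subgroup G) (z : G → ℂ) : N → ℂ := fun n => z n

theorem Hg.eq_ext {z : G → ℂ} (h : Hg N M 1 z) : z = extendByZero N (rsN N z) := by
  apply eq_ext_of_supp
  intro g hg
  apply h.supp
  intro h1
  exact hg ((QuotientGroup.eq_one_iff g).mp h1)

theorem Hg.isClassFunction_rsN {q : G ⧸ N} {z : G → ℂ} (h : Hg N M q z) :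
    IsClassFunction N (rsN N z) := by
  intro n m
  exact h.inv m m.2 n

theorem mk_conj_inv (g x : G) : (QuotientGroup.mk (g⁻¹ * x * g) : G ⧸ N)
    = (QuotientGroup.mk g)⁻¹ * QuotientGroup.mk x * QuotientGroup.mk g := by
  rw [QuotientGroup.mk_mul, QuotientGroup.mk_mul, QuotientGroup.mk_inv]

theorem Hg.cjF' {q : G ⧸ N} {z : G → ℂ} (h : Hg N M q z) (g : G) :
    Hg N M (QuotientGroup.mk g * q * (QuotientGroup.mk g)⁻¹) (cjF g z) where
  mem := fun x => h.mem _
  supp := by
    intro x hx
    rw [cjF_apply]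
    apply h.supp
    intro h1
    apply hx
    rw [mk_conj_inv] at h1
    rw [← h1]
    group
  inv := by
    intro n hn x
    rw [cjF_apply, cjF_apply]
    have h1 : g⁻¹ * n * g ∈ N := by
      have := (inferInstance : N.Normal).conj_mem _ hn g⁻¹
      simpa using this
    have := h.inv _ h1 (g⁻¹ * x * g)
    rw [← this]
    congr 1
    group

theorem Hg.cjF {z : G → ℂ} (h : Hg N M 1 z) (g : G) : Hg N M 1 (cjF g z) :=
  (h.cjF' g).congr (by group)

theorem cjF_cmp {ε : G → ℂ} (hc : IsClassFunction G ε) (g : G) (q : G ⧸ N) :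
    cjF g (cmp N q ε) = cmp N (QuotientGroup.mk g * q * (QuotientGroup.mk g)⁻¹) ε := by
  funext x
  rw [cjF_apply, cmp_apply, cmp_apply, mk_conj_inv]
  have h1 : ε (g⁻¹ * x * g) = ε x := by
    have := hc x g⁻¹
    simpa using this
  rw [h1]
  congr 1
  apply propext
  constructor
  · intro h
    rw [← h]
    group
  · intro h
    rw [h]
    group

variable (M) in
/-- the family generating the module in the Nakayama argument -/
noncomputable def vF (θ : IrrCharacter N) (ε : G → ℂ) (g : G) : G → ℂ :=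
  conv (eT θ) (conv (dl g) ε)

variable (M) in
/-- membership in the maximal ideal times the module -/
def InmY (θ : IrrCharacter N) (ε : G → ℂ) (F : G → ℂ) : Prop :=
  ∃ m : G → ℂ, (∀ g, MemLocalIdeal M (m g)) ∧ F = ∑ g, m g • vF θ ε g

theorem InmY.sum [M.IsPrime] {θ : IrrCharacter N} {ε : G → ℂ} {ι : Type*} (s : Finset ι)
    {F : ι → G → ℂ} (h : ∀ i ∈ s, InmY M θ ε (F i)) : InmY M θ ε (∑ i ∈ s, F i) := by
  induction s using Finset.induction_on with
  | empty => exact ⟨0, fun _ => memLocalIdeal_zero, by simp⟩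
  | insert a s ha ih =>
    obtain ⟨m, hm, hF⟩ := h a (Finset.mem_insert_self a s)
    obtain ⟨m', hm', hF'⟩ := ih (fun i hi => h i (Finset.mem_insert_of_mem hi))
    refine ⟨m + m', fun g => MemLocalIdeal.add (hm g) (hm' g), ?_⟩
    rw [Finset.sum_insert ha, hF, hF', ← Finset.sum_add_distrib]
    refine Finset.sum_congr rfl fun g _ => ?_
    rw [Pi.add_apply, add_smul]

variable (M) in
/-- the property propagated along walks -/
def PP' (θ : IrrCharacter N) (ε : G → ℂ) (f : G → ℂ) : Prop :=
  InmY M θ ε (conv (eT θ) (conv f ε))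

theorem pp_conv [M.IsPrime] {θ : IrrCharacter N} {ε : G → ℂ} {x z : G → ℂ}
    (hx : ∀ g, MemLocalRing M (x g)) (hz : Hg N M 1 z)
    (hJ : ∀ g, MemLocalIdeal M (om (θ : N → ℂ) (rsN N (cjF g z)))) :
    PP' M θ ε (conv x z) := by
  refine ⟨fun g => x g * om (θ : N → ℂ) (rsN N (cjF g z)),
    fun g => MemLocalIdeal.mul_left (hx g) (hJ g), ?_⟩
  conv_lhs => rw [eq_sum_dl x]
  rw [sum_conv', sum_conv', conv_sum']
  refine Finset.sum_congr rfl fun g _ => ?_
  rw [smul_conv, smul_conv, conv_smul, dl_conv_eq_cjF_conv, conv_assoc, ← conv_assoc (eT θ),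
    (hz.cjF g).eq_ext, eT_conv_ext θ (hz.cjF g).isClassFunction_rsN, smul_conv, smul_smul]
  rfl

variable (M) in
/-- the invariant of the walk induction -/
def WInv (θ : IrrCharacter N) (ε : G → ℂ) (A : Finset (G ⧸ N)) (d : G ⧸ N) (x : G → ℂ) : Prop :=
  (∀ g, MemLocalRing M (x g)) ∧ ∀ a ∈ A, ∀ (q : G ⧸ N) (y : G → ℂ), Hg N M (q⁻¹ * d⁻¹ * a) y →
    PP' M θ ε (conv x (conv (cmp N q ε) y))

/-- the hypotheses of the argument by contradiction -/
structure WHyp (M : Ideal AlgInt) (θ : IrrCharacter N) (ε : G → ℂ) : Prop where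
  cls : IsClassFunction G ε
  mem : ∀ g, MemLocalRing M (ε g)
  idem : conv ε ε = ε
  small : ∀ (q : G ⧸ N) (y : G → ℂ), Hg N M q⁻¹ y →
    MemLocalIdeal M (om (θ : N → ℂ) (rsN N (conv (cmp N q ε) y)))

theorem WHyp.pp_closed [M.IsPrime] {θ : IrrCharacter N} {ε : G → ℂ} (H : WHyp M θ ε)
    {x : G → ℂ} (hx : ∀ g, MemLocalRing M (x g)) {q : G ⧸ N} {y : G → ℂ} (hy : Hg N M q⁻¹ y) :
    PP' M θ ε (conv x (conv (cmp N q ε) y)) := by
  have hz : Hg N M 1 (conv (cmp N q ε) y) :=
    ((hg_cmp H.cls H.mem q).conv hy).congr (by group)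
  refine pp_conv hx hz fun g => ?_
  rw [cjF_conv, cjF_cmp H.cls]
  exact H.small _ _ ((hy.cjF' g).congr (by group))

theorem WHyp.step [M.IsPrime] {θ : IrrCharacter N} {ε : G → ℂ} (H : WHyp M θ ε)
    {A : Finset (G ⧸ N)} {d : G ⧸ N} {x : G → ℂ} (h : WInv M θ ε A d x) (q₀ : G ⧸ N) :
    WInv M θ ε (insert (d * q₀) A) (d * q₀) (conv x (cmp N q₀ ε)) := by
  have hx' : ∀ g, MemLocalRing M (conv x (cmp N q₀ ε) g) :=
    memLocalRing_conv h.1 (hg_cmp H.cls H.mem q₀).mem
  refine ⟨hx', ?_⟩
  intro a ha q y hy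
  rcases Finset.mem_insert.mp ha with rfl | ha
  · exact H.pp_closed hx' (hy.congr (by group))
  · have hy' : Hg N M (q₀⁻¹ * d⁻¹ * a) (conv (cmp N q ε) y) :=
      ((hg_cmp H.cls H.mem q).conv hy).congr (by group)
    have := h.2 a ha q₀ _ hy'
    rwa [← conv_assoc] at this

theorem WHyp.pp_of_inv [M.IsPrime] {θ : IrrCharacter N} {ε : G → ℂ} (H : WHyp M θ ε) :
    ∀ (k : ℕ) (A : Finset (G ⧸ N)) (d : G ⧸ N) (x : G → ℂ), (Finset.univ \ A).card = k →
      WInv M θ ε A d x → PP' M θ ε x := by
  intro k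
  induction k using Nat.strong_induction_on with
  | _ k ih =>
    intro A d x hk h
    have h1 : conv (eT θ) (conv x ε)
        = ∑ q : G ⧸ N, conv (eT θ) (conv (conv x (cmp N q ε)) ε) := by
      have h0 : conv x ε = ∑ q : G ⧸ N, conv x (cmp N q ε) := by
        conv_lhs => rw [← sum_cmp N ε]
        rw [conv_sum']
      conv_lhs => rw [← H.idem, ← conv_assoc x, h0]
      rw [sum_conv', conv_sum']
    unfold PP'
    rw [h1]
    apply InmY.sum
    intro q _
    by_cases hq : d * q ∈ A
    · have h2 := h.2 (d * q) hq q delta (hg_delta.congr (by group))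
      rwa [conv_delta] at h2
    · have h3 : (Finset.univ \ insert (d * q) A).card < k := by
        rw [← hk]
        apply Finset.card_lt_card
        rw [Finset.ssubset_iff_of_subset
          (Finset.sdiff_subset_sdiff (Finset.Subset.refl _) (Finset.subset_insert _ _))]
        refine ⟨d * q, ?_, ?_⟩
        · simp [hq]
        · simp
      exact ih _ h3 _ _ _ rfl (H.step h q)

/-- Under the hypotheses, the idempotent is killed by the idempotent of `θ`. -/
theorem WHyp.eT_conv_eq_zero [M.IsPrime] {θ : IrrCharacter N} {ε : G → ℂ} (H : WHyp M θ ε) :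
    conv (eT θ) ε = 0 := by
  have h1 : ∀ g, InmY M θ ε (vF θ ε g) := by
    intro g
    have h2 : WInv M θ ε {1} 1 (dl g) := by
      refine ⟨memLocalRing_dl g, ?_⟩
      intro a ha q y hy
      rw [Finset.mem_singleton] at ha
      subst ha
      exact H.pp_closed (memLocalRing_dl g) (hy.congr (by group))
    exact H.pp_of_inv _ _ _ _ rfl h2
  have h3 := nakayama_fun (M := M) (vF θ ε) h1 1
  rwa [vF, dl_one_conv] at h3

/-- A central idempotent not killed by the idempotent of `θ` has a homogeneous component that is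
invertible at `θ`. -/
theorem exists_unit_component [M.IsPrime] {θ : IrrCharacter N} {ε : G → ℂ}
    (hc : IsClassFunction G ε) (hS : ∀ g, MemLocalRing M (ε g)) (hi : conv ε ε = ε)
    (h0 : conv (eT θ) ε ≠ 0) :
    ∃ (q : G ⧸ N) (y : G → ℂ), Hg N M q⁻¹ y ∧
      ¬ MemLocalIdeal M (om (θ : N → ℂ) (rsN N (conv (cmp N q ε) y))) := by
  by_contra hcon
  push Not at hcon
  exact h0 (WHyp.eT_conv_eq_zero ⟨hc, hS, hi, hcon⟩)

end main

end Cfsg.Agent.Lib.Helper24
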