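import Cfsg.Agent.Lib.Helper24.FongPSol
import Cfsg.Agent.Lib.Helper24.BlockNil
import Cfsg.Agent.Lib.Helper24.SubPair
import Cfsg.Agent.Lib.Helper24.PairStab
import Cfsg.Agent.S0174

/-!
# Nilpotent blocks and normal subgroups of `p`-power index
-/

set_option autoImplicit false

namespace Cfsg.Agent.Lib.Helper24

open Cfsg Cfsg.Agent.Lib.Helper2 Cfsg.Agent.Lib.Helper6
open scoped ComplexConjugate Classical

attribute [local instance] irrFintype

section pair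

variable {G : Type*} [Group G] [Fintype G] {M : Ideal AlgInt} {p : ℕ} {C D : Subgroup G}

/-- conjugation is compatible with restriction -/
theorem classInner_conj_incl (hDC : D ≤ C) {x : G} (hC : IsConjSub x C C) (hD : IsConjSub x D D)
    (ξ : IrrCharacter C) (θ : IrrCharacter D) :
    classInner (((irrMap (conjIso hC) ξ : IrrCharacter C) : C → ℂ) ∘ Subgroup.inclusion hDC)
      ((irrMap (conjIso hD) θ : IrrCharacter D) : D → ℂ) =
    classInner ((ξ : C → ℂ) ∘ Subgroup.inclusion hDC) (θ : D → ℂ) := by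
  have e1 : ((irrMap (conjIso hC) ξ : IrrCharacter C) : C → ℂ) ∘ Subgroup.inclusion hDC =
      ((ξ : C → ℂ) ∘ Subgroup.inclusion hDC) ∘ conjIso hD := by
    ext d
    rfl
  rw [e1, irrMap_coe, classInner_comp_equiv']

theorem stabilizesBlock_of_mem [M.IsPrime] {f : Set (IrrCharacter D)} (hf : IsPBlock M f) {s : G}
    (hD : IsConjSub s D D) {θ : IrrCharacter D} (hθ : θ ∈ f)
    (hθs : irrMap (conjIso hD) θ ∈ f) : StabilizesBlock D f s := by
  rw [stabilizesBlock_iff]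
  refine ⟨hD.mem_normalizer, ?_⟩
  rw [← sbc_conjSet hD]
  congr 1
  exact IsPBlock.eq_of_mem_of_mem (isPBlock_conjSet hD hf) hf ((mem_blockMap _ _ _).mpr hθ) hθs

theorem mem_of_stabilizesBlock {f : Set (IrrCharacter D)} {s : G}
    (hs : StabilizesBlock D f s) (hD : IsConjSub s D D) {θ : IrrCharacter D} (hθ : θ ∈ f) :
    irrMap (conjIso hD) θ ∈ f := by
  obtain ⟨χ', hχ', hc⟩ := hs.2 θ hθ
  have : χ' = irrMap (conjIso hD) θ := Subtype.ext ((isConjCharOf_iff hD _ _).mp hc)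
  rw [← this]
  exact hχ'

/-- if all `p`-regular elements of `C` lie in the normal subgroup `D`, a block of `D` is covered
by only one block of `C` -/
theorem sameBlock_of_over_of_pRegular (hM : IsPModular p M) (hDC : D ≤ C)
    (hreg : ∀ g ∈ C, ¬ p ∣ orderOf g → g ∈ D) (hnorm : ∀ h ∈ C, ∀ d ∈ D, h * d * h⁻¹ ∈ D)
    {ξ₁ ξ₂ : IrrCharacter C} {θ₁ θ₂ : IrrCharacter D}
    (h₁ : classInner ((ξ₁ : C → ℂ) ∘ Subgroup.inclusion hDC) (θ₁ : D → ℂ) ≠ 0)
    (h₂ : classInner ((ξ₂ : C → ℂ) ∘ Subgroup.inclusion hDC) (θ₂ : D → ℂ) ≠ 0)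
    (hs : SameBlock M (θ₁ : D → ℂ) (θ₂ : D → ℂ)) : SameBlock M (ξ₁ : C → ℂ) (ξ₂ : C → ℂ) := by
  have := IsPModular.isPrime hM
  apply sameBlock_of_pRegular hM
  intro g hg
  rw [← Subgroup.orderOf_coe g] at hg
  have hgD : (g : G) ∈ D := hreg g g.2 hg
  have hsupp : ∀ t : C, t ∉ Set.range (Subgroup.inclusion hDC) → classInd g t = 0 := by
    intro t ht
    rw [classInd_apply, if_neg]
    intro hconj
    apply ht
    obtain ⟨u, hu⟩ := isConj_iff.mp hconj
    refine ⟨⟨(t : G), ?_⟩, rfl⟩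
    rw [← hu]
    exact hnorm u u.2 g hgD
  have hinj : Function.Injective (Subgroup.inclusion hDC) := Subgroup.inclusion_injective hDC
  rw [← om_classInd (irr_isClassFunction ξ₁.2), ← om_classInd (irr_isClassFunction ξ₂.2),
    om_eq_of_constituent _ hinj ξ₁.2 θ₁ h₁ (isClassFunction_classInd g) hsupp,
    om_eq_of_constituent _ hinj ξ₂.2 θ₂ h₂ (isClassFunction_classInd g) hsupp]
  apply om_sub_memLocalIdeal θ₁.2 θ₂.2 hs
  · intro c k
    simp only [Function.comp_apply, map_mul, map_inv]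
    exact isClassFunction_classInd g _ _
  · intro d
    exact Cfsg.Agent.Lib.Helper6.memLocalRing_classInd _ _

theorem overG_of_sameBlock [M.IsPrime] {N : Subgroup G} [N.Normal] {b : Set (IrrCharacter N)}
    (hb : IsPBlock M b) {χ χ' : IrrCharacter G} (hs : SameBlock M (χ : G → ℂ) (χ' : G → ℂ))
    (h : OverG b (χ : G → ℂ)) : OverG b (χ' : G → ℂ) := by
  have hT : ∀ g, g ∈ stabSub N b ↔ StabilizesBlock N b g := fun g => mem_stabSub
  have hNT := le_stabSub N b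
  exact (over_iff hb hT hNT χ').mp (over_of_sameBlock (stabIdem_sbc hb hT) (sbc_memLocalRing N hb)
    χ.2 χ'.2 hs ((over_iff hb hT hNT χ).mpr h))

theorem exists_conj_of_constituents {N : Subgroup G} [hN : N.Normal] (χ : IrrCharacter G)
    (θ₁ θ₂ : IrrCharacter N) (h₁ : classInner (fun n : N => (χ : G → ℂ) n) (θ₁ : N → ℂ) ≠ 0)
    (h₂ : classInner (fun n : N => (χ : G → ℂ) n) (θ₂ : N → ℂ) ≠ 0) :
    ∃ g : G, (θ₂ : N → ℂ) = fun n : N => (θ₁ : N → ℂ) ⟨g * n * g⁻¹, hN.conj_mem n n.2 g⟩ := by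
  have h := Cfsg.Agent.S0174.result N hN (χ : G → ℂ) χ.2 (θ₁ : N → ℂ) θ₁.2 (by convert h₁)
  have hfin : {ψ : N → ℂ | ∃ g : G, ψ = fun n : N =>
      (θ₁ : N → ℂ) ⟨g * n * g⁻¹, hN.conj_mem n n.2 g⟩}.Finite := by
    have : {ψ : N → ℂ | ∃ g : G, ψ = fun n : N =>
      (θ₁ : N → ℂ) ⟨g * n * g⁻¹, hN.conj_mem n n.2 g⟩} = Set.range (fun g : G => fun n : N =>
      (θ₁ : N → ℂ) ⟨g * n * g⁻¹, hN.conj_mem n n.2 g⟩) := by
      ext ψ
      exact ⟨fun ⟨g, hg⟩ => ⟨g, hg.symm⟩, fun ⟨g, hg⟩ => ⟨g, hg.symm⟩⟩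
    rw [this]
    exact Set.finite_range _
  rw [finsum_mem_eq_finite_toFinset_sum _ hfin] at h
  rw [h, classInner_smul_left, classInner_sum_left] at h₂
  obtain ⟨ψ, hψ, hne⟩ := Finset.exists_ne_zero_of_sum_ne_zero (right_ne_zero_of_mul h₂)
  obtain ⟨g, hg⟩ := hfin.mem_toFinset.mp hψ
  refine ⟨g, ?_⟩
  have hirr : IsIrrCharacter N ψ := by
    rw [hg]
    exact isIrrCharacter_comp_equiv θ₁.2 (MulAut.conjNormal g : N ≃* N)
  rw [classInner_irr hirr θ₂.2] at hne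
  by_contra hcon
  apply hne
  rw [if_neg]
  intro h3
  exact hcon (by rw [← h3, hg])

theorem normal_subgroupOf_of_le_normalizer (hCn : C ≤ Subgroup.normalizer (D : Set G)) :
    (D.subgroupOf C).Normal := by
  refine ⟨fun d hd h => ?_⟩
  rw [Subgroup.mem_subgroupOf] at hd ⊢
  exact (Subgroup.mem_normalizer_iff.mp (hCn h.2) d).mp hd

theorem classInner_res_copy (hDC : D ≤ C) (η : C → ℂ) (θ : D → ℂ) :
    classInner (fun n : ↥(D.subgroupOf C) => η n)
      (θ ∘ (copyIso (isCopy_subgroupOf hDC)).symm) =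
    classInner (η ∘ Subgroup.inclusion hDC) θ := by
  have e1 : (fun n : ↥(D.subgroupOf C) => η n) =
      (η ∘ Subgroup.inclusion hDC) ∘ (copyIso (isCopy_subgroupOf hDC)).symm := by
    ext n
    rfl
  rw [e1, classInner_comp_equiv']

/-- all members of a block of `C` covering the block `f` of the normal subgroup `D` have a
constituent in `f` -/
theorem over_of_sameBlock_incl [M.IsPrime] (hDC : D ≤ C)
    (hCn : C ≤ Subgroup.normalizer (D : Set G)) {f : Set (IrrCharacter D)} (hf : IsPBlock M f)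
    {ξ ξ' : IrrCharacter C} (hs : SameBlock M (ξ : C → ℂ) (ξ' : C → ℂ))
    (h : ∃ θ ∈ f, classInner ((ξ : C → ℂ) ∘ Subgroup.inclusion hDC) (θ : D → ℂ) ≠ 0) :
    ∃ θ ∈ f, classInner ((ξ' : C → ℂ) ∘ Subgroup.inclusion hDC) (θ : D → ℂ) ≠ 0 := by
  have hY := normal_subgroupOf_of_le_normalizer hCn
  obtain ⟨e, he⟩ : ∃ e : ↥D ≃* ↥(D.subgroupOf C), e = copyIso (isCopy_subgroupOf hDC) := ⟨_, rfl⟩
  have hbB : IsPBlock M (blockMap e.symm f) := isPBlock_blockMap _ hf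
  have key : ∀ η : IrrCharacter C, OverG (blockMap e.symm f) (η : C → ℂ) ↔
      ∃ θ ∈ f, classInner ((η : C → ℂ) ∘ Subgroup.inclusion hDC) (θ : D → ℂ) ≠ 0 := by
    intro η
    constructor
    · rintro ⟨_, ⟨θ, hθ, rfl⟩, hne⟩
      refine ⟨θ, hθ, ?_⟩
      rw [irrMap_coe, he, classInner_res_copy] at hne
      exact hne
    · rintro ⟨θ, hθ, hne⟩
      refine ⟨irrMap e.symm θ, (mem_blockMap _ _ _).mpr hθ, ?_⟩
      rw [irrMap_coe, he, classInner_res_copy]
      exact hne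
  exact (key ξ').mp (overG_of_sameBlock hbB hs ((key ξ).mpr h))

/-- Clifford: the constituents of the restriction to a normal subgroup are conjugate -/
theorem exists_conj_of_constituents_incl (hDC : D ≤ C)
    (hCn : C ≤ Subgroup.normalizer (D : Set G)) (ξ : IrrCharacter C) (θ₁ θ₂ : IrrCharacter D)
    (h₁ : classInner ((ξ : C → ℂ) ∘ Subgroup.inclusion hDC) (θ₁ : D → ℂ) ≠ 0)
    (h₂ : classInner ((ξ : C → ℂ) ∘ Subgroup.inclusion hDC) (θ₂ : D → ℂ) ≠ 0) :
    ∃ h ∈ C, ∃ hD : IsConjSub h D D, θ₂ = irrMap (conjIso hD) θ₁ := by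
  have hY := normal_subgroupOf_of_le_normalizer hCn
  obtain ⟨e, he⟩ : ∃ e : ↥D ≃* ↥(D.subgroupOf C), e = copyIso (isCopy_subgroupOf hDC) := ⟨_, rfl⟩
  obtain ⟨g, hg⟩ := exists_conj_of_constituents ξ (irrMap e.symm θ₁) (irrMap e.symm θ₂)
    (by rw [irrMap_coe, he, classInner_res_copy]; exact h₁)
    (by rw [irrMap_coe, he, classInner_res_copy]; exact h₂)
  have hgn : (g : G)⁻¹ ∈ Subgroup.normalizer (D : Set G) := Subgroup.inv_mem _ (hCn g.2)
  refine ⟨(g : G)⁻¹, C.inv_mem g.2, isConjSub_of_mem_normalizer hgn, ?_⟩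
  apply Subtype.ext
  ext k
  have h3 := congrFun hg (e k)
  rw [irrMap_apply, irrMap_apply, MulEquiv.symm_apply_apply] at h3
  rw [h3, irrMap_apply]
  apply congrArg
  apply Subtype.ext
  rw [conjIso_coe, he, inv_inv]
  rfl

end pair

section ext

variable {G : Type*} [Group G] [Fintype G] {M : Ideal AlgInt} {p : ℕ} {N : Subgroup G}

omit [Fintype G] in
theorem cz_le_normalizer_inf [hN : N.Normal] (R : Subgroup G) :
    cz R ≤ Subgroup.normalizer ((cz R ⊓ N : Subgroup G) : Set G) := by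
  intro h hh
  rw [Subgroup.mem_normalizer_iff]
  intro g
  constructor
  · rintro ⟨h1, h2⟩
    exact ⟨(cz R).mul_mem ((cz R).mul_mem hh h1) ((cz R).inv_mem hh), hN.conj_mem g h2 h⟩
  · rintro ⟨h1, h2⟩
    have e : g = h⁻¹ * (h * g * h⁻¹) * h⁻¹⁻¹ := by group
    rw [e]
    exact ⟨(cz R).mul_mem ((cz R).mul_mem ((cz R).inv_mem hh) h1) ((cz R).inv_mem
      ((cz R).inv_mem hh)), hN.conj_mem _ h2 h⁻¹⟩

omit [Fintype G] in
theorem isConjSub_inf [hN : N.Normal] {x : G} {K : Subgroup G} (h : IsConjSub x K K) :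
    IsConjSub x (K ⊓ N) (K ⊓ N) := by
  intro g
  constructor
  · rintro ⟨h1, h2⟩
    refine ⟨(h g).mp h1, ?_⟩
    have := hN.conj_mem g h2 x⁻¹
    rwa [inv_inv] at this
  · rintro ⟨h1, h2⟩
    refine ⟨(h g).mpr h1, ?_⟩
    have := hN.conj_mem _ h2 x
    have e : x * (x⁻¹ * g * x) * x⁻¹ = g := by group
    rwa [e] at this

/-- the local pairs of the block of `N` with idempotent `β`, on the level of `G` -/
def LocPair (p : ℕ) (M : Ideal AlgInt) (N : Subgroup G) (β : G → ℂ) (R : Subgroup G)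
    (f : Set (IrrCharacter ↥(cz R ⊓ N))) : Prop :=
  IsPGroup p R ∧ IsPBlock M f ∧
    ∀ θ ∈ f, MemLocalIdeal M (om (θ : ↥(cz R ⊓ N) → ℂ) (fun d : ↥(cz R ⊓ N) => β d) - 1)

theorem brauerOmega_eq_om_inf {β : G → ℂ} (hβ : IsClassFunction G β) (hsupp : ∀ g, g ∉ N → β g = 0)
    (R : Subgroup G) (ξ : IrrCharacter (cz R)) (θ : IrrCharacter ↥(cz R ⊓ N))
    (h : classInner ((ξ : cz R → ℂ) ∘ Subgroup.inclusion inf_le_left) (θ : ↥(cz R ⊓ N) → ℂ) ≠ 0) :
    brauerOmega R β (ξ : cz R → ℂ) = om (θ : ↥(cz R ⊓ N) → ℂ) (fun d : ↥(cz R ⊓ N) => β d) := by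
  rw [brauerOmega_eq_om, om_eq_of_constituent (Subgroup.inclusion inf_le_left)
    (Subgroup.inclusion_injective _) ξ.2 θ h (y := resC R β)]
  · rfl
  · intro c k
    exact hβ _ _
  · intro t ht
    apply hsupp
    intro htN
    exact ht ⟨⟨(t : G), t.2, htN⟩, rfl⟩

theorem isClassFunction_res_inf {β : G → ℂ} (hβ : IsClassFunction G β) (K : Subgroup G) :
    IsClassFunction K (fun d : K => β d) := by
  intro c k
  exact hβ _ _

theorem locPair_of_pair [M.IsPrime] {B : Set (IrrCharacter G)}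
    (hsupp : ∀ g, g ∉ N → blockCoeff B g = 0) {R : Subgroup G} {F : Set (IrrCharacter (cz R))}
    (hF : IsBrauerPairOf p M B R F) {ξ : IrrCharacter (cz R)} (hξ : ξ ∈ F)
    {θ : IrrCharacter ↥(cz R ⊓ N)}
    (h : classInner ((ξ : cz R → ℂ) ∘ Subgroup.inclusion inf_le_left) (θ : ↥(cz R ⊓ N) → ℂ) ≠ 0) :
    LocPair p M N (blockCoeff B) R (blockOf M (θ : ↥(cz R ⊓ N) → ℂ)) := by
  have hd := dom_blockCoeff (M := M) R hF.2.1
  have hcl : IsClassFunction G (blockCoeff B) := by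
    rw [blockCoeff_fun]
    exact isClassFunction_coef _
  refine ⟨hF.1.1, ⟨θ, rfl⟩, fun θ₁ hθ₁ => ?_⟩
  have h1 := hF.2.2 ξ hξ
  rw [brauerOmega_eq_om_inf hcl hsupp R ξ θ h] at h1
  have h2 := om_sub_memLocalIdeal θ.2 θ₁.2 hθ₁ (isClassFunction_res_inf hcl _)
    (fun d => hd.mem d)
  have h3 := MemLocalIdeal.sub h1 h2
  convert h3 using 1
  ring

theorem pair_of_locPair [M.IsPrime] {B : Set (IrrCharacter G)} (hB : IsPBlock M B)
    (hsupp : ∀ g, g ∉ N → blockCoeff B g = 0) {R : Subgroup G}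
    {f : Set (IrrCharacter ↥(cz R ⊓ N))} (hf : LocPair p M N (blockCoeff B) R f)
    {θ : IrrCharacter ↥(cz R ⊓ N)} (hθ : θ ∈ f) {ξ : IrrCharacter (cz R)}
    (h : classInner ((ξ : cz R → ℂ) ∘ Subgroup.inclusion inf_le_left) (θ : ↥(cz R ⊓ N) → ℂ) ≠ 0) :
    IsBrauerPairOf p M B R (blockOf M (ξ : cz R → ℂ)) := by
  have hd := dom_blockCoeff (M := M) R hB
  have hcl : IsClassFunction G (blockCoeff B) := by
    rw [blockCoeff_fun]
    exact isClassFunction_coef _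
  refine ⟨⟨hf.1, ⟨ξ, rfl⟩⟩, hB, fun ξ₁ hξ₁ => ?_⟩
  have h1 := hf.2.2 θ hθ
  rw [← brauerOmega_eq_om_inf hcl hsupp R ξ θ h, brauerOmega_eq_om] at h1
  rw [brauerOmega_eq_om]
  have h2 := om_sub_memLocalIdeal ξ.2 ξ₁.2 hξ₁ hd.isClassFunction_resC hd.mem_resC
  have h3 := MemLocalIdeal.sub h1 h2
  convert h3 using 1
  ring

omit [Fintype G] in
/-- a `p`-regular element acting on `Q` like an element with a `p`-power in `C(Q)`
centralizes `Q` -/
theorem mem_cz_of_conj_eq' (hp : p.Prime) {Q : Subgroup G} {x a : G} (hx : ¬ p ∣ orderOf x) {k : ℕ}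
    (ha : a ^ p ^ k ∈ cz Q) (hxQ : ∀ u ∈ Q, x * u * x⁻¹ ∈ Q)
    (h : ∀ u ∈ Q, x * u * x⁻¹ = a * u * a⁻¹) : x ∈ cz Q := by
  have h1 : ∀ i : ℕ, ∀ u ∈ Q, x ^ i * u * (x ^ i)⁻¹ = a ^ i * u * (a ^ i)⁻¹ := by
    intro i
    induction i with
    | zero => intro u _; simp
    | succ i ih =>
      intro u hu
      have e1 : x ^ (i + 1) * u * (x ^ (i + 1))⁻¹ = x ^ i * (x * u * x⁻¹) * (x ^ i)⁻¹ := by
        rw [pow_succ]; group
      have e2 : a ^ (i + 1) * u * (a ^ (i + 1))⁻¹ = a ^ i * (a * u * a⁻¹) * (a ^ i)⁻¹ := by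
        rw [pow_succ]; group
      rw [e1, e2, ih _ (hxQ u hu), h u hu]
  have hcop : Nat.Coprime (orderOf x) (p ^ k) :=
    Nat.Coprime.pow_right k ((Nat.Prime.coprime_iff_not_dvd hp).mpr hx).symm
  obtain ⟨i, hi1, hi2⟩ := Nat.chineseRemainder hcop 1 0
  have hxi : x ^ i = x := by
    have := pow_eq_pow_iff_modEq.mpr hi1
    rwa [pow_one] at this
  have hai : a ^ i ∈ cz Q := by
    obtain ⟨m, hm⟩ := (Nat.modEq_zero_iff_dvd.mp hi2)
    rw [hm, pow_mul]
    exact (cz Q).pow_mem ha m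
  rw [Subgroup.mem_centralizer_iff]
  intro u hu
  have h2 := h1 i u hu
  rw [hxi] at h2
  have h3 : a ^ i * u * (a ^ i)⁻¹ = u := by
    rw [← (Subgroup.mem_centralizer_iff.mp hai) u hu]
    group
  rw [h3] at h2
  calc u * x = (x * u * x⁻¹) * x := by rw [h2]
    _ = x * u := by group

/-- going up: a local pair of the block of `N`, with an element stabilizing it -/
theorem exists_pair_up (hM : IsPModular p M) [hN : N.Normal] {k : ℕ} (hidx : N.index = p ^ k)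
    {B : Set (IrrCharacter G)} (hB : IsPBlock M B) (hsupp : ∀ g, g ∉ N → blockCoeff B g = 0)
    {R : Subgroup G} {f : Set (IrrCharacter ↥(cz R ⊓ N))}
    (hf : LocPair p M N (blockCoeff B) R f) {x : G}
    (hx : x ∈ Subgroup.normalizer (R : Set G)) (hxf : StabilizesBlock (cz R ⊓ N) f x) :
    ∃ F : Set (IrrCharacter (cz R)), IsBrauerPairOf p M B R F ∧ StabilizesBlock (cz R) F x := by
  have := IsPModular.isPrime hM
  have : Fact p.Prime := ⟨hM.1⟩
  obtain ⟨θ, hθ⟩ := IsPBlock.nonempty hf.2.1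
  obtain ⟨ξ, hξ⟩ := exists_irr_over (Subgroup.inclusion (inf_le_left : cz R ⊓ N ≤ cz R))
    (Subgroup.inclusion_injective _) θ
  refine ⟨blockOf M (ξ : cz R → ℂ), pair_of_locPair hB hsupp hf hθ hξ, ?_⟩
  have hC : IsConjSub x (cz R) (cz R) := (isConjSub_of_mem_normalizer hx).centralizer
  have hD : IsConjSub x (cz R ⊓ N) (cz R ⊓ N) := isConjSub_inf hC
  refine stabilizesBlock_of_mem ⟨ξ, rfl⟩ hC (mem_blockOf_self ξ) ?_
  have h2 : classInner (((irrMap (conjIso hC) ξ : IrrCharacter (cz R)) : cz R → ℂ) ∘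
      Subgroup.inclusion inf_le_left)
      ((irrMap (conjIso hD) θ : IrrCharacter ↥(cz R ⊓ N)) : ↥(cz R ⊓ N) → ℂ) ≠ 0 := by
    rw [classInner_conj_incl]
    exact hξ
  exact sameBlock_of_over_of_pRegular hM inf_le_left
    (fun g hg hreg => ⟨hg, mem_of_pRegular_of_index hidx hreg⟩)
    (fun h hh d hd => (Subgroup.mem_normalizer_iff.mp (cz_le_normalizer_inf R hh) d).mp hd)
    hξ h2 (IsPBlock.sameBlock hf.2.1 hθ (mem_of_stabilizesBlock hxf hD hθ))

/-- going down: below a pair of `B` with an element stabilizing it -/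
theorem exists_pair_down [M.IsPrime] [hN : N.Normal]
    {B : Set (IrrCharacter G)} (hsupp : ∀ g, g ∉ N → blockCoeff B g = 0)
    {R : Subgroup G} {F : Set (IrrCharacter (cz R))} (hF : IsBrauerPairOf p M B R F) {x : G}
    (hx : x ∈ Subgroup.normalizer (R : Set G)) (hxF : StabilizesBlock (cz R) F x) :
    ∃ f : Set (IrrCharacter ↥(cz R ⊓ N)), LocPair p M N (blockCoeff B) R f ∧
      ∃ h ∈ cz R, StabilizesBlock (cz R ⊓ N) f (h * x) := by
  obtain ⟨ξ, hξ⟩ := IsPBlock.nonempty hF.1.2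
  obtain ⟨θ, hθ⟩ := exists_constituent_incl (inf_le_left : cz R ⊓ N ≤ cz R) ξ
  refine ⟨blockOf M (θ : ↥(cz R ⊓ N) → ℂ), locPair_of_pair hsupp hF hξ hθ, ?_⟩
  have hC : IsConjSub x (cz R) (cz R) := (isConjSub_of_mem_normalizer hx).centralizer
  have hD : IsConjSub x (cz R ⊓ N) (cz R ⊓ N) := isConjSub_inf hC
  have hξx := mem_of_stabilizesBlock hxF hC hξ
  have h2 : classInner (((irrMap (conjIso hC) ξ : IrrCharacter (cz R)) : cz R → ℂ) ∘
      Subgroup.inclusion inf_le_left)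
      ((irrMap (conjIso hD) θ : IrrCharacter ↥(cz R ⊓ N)) : ↥(cz R ⊓ N) → ℂ) ≠ 0 := by
    rw [classInner_conj_incl]
    exact hθ
  obtain ⟨θ₁, hθ₁, h3⟩ := over_of_sameBlock_incl inf_le_left (cz_le_normalizer_inf R)
    (⟨θ, rfl⟩ : IsPBlock M (blockOf M (θ : ↥(cz R ⊓ N) → ℂ)))
    (IsPBlock.sameBlock hF.1.2 hξ hξx) ⟨θ, mem_blockOf_self θ, hθ⟩
  obtain ⟨h, hh, hD', h4⟩ := exists_conj_of_constituents_incl inf_le_left
    (cz_le_normalizer_inf R) _ _ _ h2 h3
  refine ⟨h, hh, stabilizesBlock_of_mem ⟨θ, rfl⟩ (hD.mul hD') (mem_blockOf_self θ) ?_⟩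
  have h5 : irrMap (conjIso (hD.mul hD')) θ = θ₁ := by
    rw [h4]
    apply Subtype.ext
    ext d
    rw [irrMap_apply, irrMap_apply, irrMap_apply]
    apply congrArg
    apply Subtype.ext
    rw [conjIso_coe, conjIso_coe, conjIso_coe]
    group
  rw [h5]
  exact hθ₁

end ext

section transport

variable {G : Type*} [Group G] [Fintype G] {M : Ideal AlgInt} {p : ℕ} {N : Subgroup G}

omit [Fintype G] in
theorem isCopy_cz_inf {R' : Subgroup N} {R : Subgroup G} (h : IsCopy R' R) :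
    IsCopy (cz R') (cz R ⊓ N) := by
  intro g
  constructor
  · rintro ⟨h1, h2⟩
    exact ⟨h2, (h.mem_centralizer_iff ⟨g, h2⟩).mpr h1⟩
  · rintro ⟨hH, h2⟩
    exact ⟨(h.mem_centralizer_iff ⟨g, hH⟩).mp h2, hH⟩

theorem brauerOmega_down {R' : Subgroup N} {R : Subgroup G} (h : IsCopy R' R)
    (c : Set (IrrCharacter N)) (ξ' : cz R' → ℂ) :
    brauerOmega R' (blockCoeff c) ξ' = om (ξ' ∘ copyIso (isCopy_cz_inf h))
      (fun d : ↥(cz R ⊓ N) => subgroupBlockCoeff N c d) := by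
  rw [brauerOmega_eq_om, om, om]
  congr 1
  symm
  apply Fintype.sum_equiv (copyIso (isCopy_cz_inf h)).toEquiv
  intro d
  congr 1
  exact sbc_coe N c ((copyIso (isCopy_cz_inf h) d : cz R') : N)

theorem isBrauerPairOf_iff_locPair {R' : Subgroup N} {R : Subgroup G} (h : IsCopy R' R)
    {c : Set (IrrCharacter N)} (hc : IsPBlock M c) (f' : Set (IrrCharacter (cz R'))) :
    IsBrauerPairOf p M c R' f' ↔
      LocPair p M N (subgroupBlockCoeff N c) R (upSet (isCopy_cz_inf h) f') := by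
  unfold IsBrauerPairOf IsBrauerPair LocPair
  rw [h.isPGroup_iff, isPBlock_upSet_iff, forall_upSet_iff (C := fun θ => MemLocalIdeal M
    (om θ (fun d : ↥(cz R ⊓ N) => subgroupBlockCoeff N c d) - 1))]
  constructor
  · rintro ⟨⟨h1, h2⟩, -, h3⟩
    refine ⟨h1, h2, fun ξ' hξ' => ?_⟩
    rw [← brauerOmega_down h]
    exact h3 ξ' hξ'
  · rintro ⟨h1, h2, h3⟩
    refine ⟨⟨h1, h2⟩, hc, fun ξ' hξ' => ?_⟩
    rw [brauerOmega_down h]
    exact h3 ξ' hξ'

omit [Fintype G] in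
theorem mem_cz_of_chain (hp : p.Prime) {Q R : Subgroup G} (hQ : IsPGroup p Q) {x : G}
    (hx : ¬ p ∣ orderOf x) (hxR : x ∈ cz R) (h : ∀ q ∈ Q, q⁻¹ * (x * q * x⁻¹) ∈ R ⊓ Q) :
    x ∈ cz Q := by
  rw [Subgroup.mem_centralizer_iff]
  intro q hq
  obtain ⟨r, hr⟩ : ∃ r, r = q⁻¹ * (x * q * x⁻¹) := ⟨_, rfl⟩
  have hrR : r ∈ R ⊓ Q := hr ▸ h q hq
  have hcomm : Commute x r := ((Subgroup.mem_centralizer_iff.mp hxR) r hrR.1).symm
  have e0 : x * q * x⁻¹ = q * r := by rw [hr]; group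
  have h1 : ∀ i : ℕ, x ^ i * q * (x ^ i)⁻¹ = q * r ^ i := by
    intro i
    induction i with
    | zero => simp
    | succ i ih =>
      have e1 : x ^ (i + 1) * q * (x ^ (i + 1))⁻¹ = x * (x ^ i * q * (x ^ i)⁻¹) * x⁻¹ := by
        rw [pow_succ']; group
      have e2 : x * (q * r ^ i) * x⁻¹ = (x * q * x⁻¹) * (x * r ^ i * x⁻¹) := by group
      have e3 : x * r ^ i * x⁻¹ = r ^ i := by
        rw [(hcomm.pow_right i).eq]; group
      rw [e1, ih, e2, e0, e3, pow_succ', mul_assoc]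
  have h2 := h1 (orderOf x)
  rw [pow_orderOf_eq_one] at h2
  have h3 : r ^ orderOf x = 1 := by
    simpa using h2.symm
  obtain ⟨j, hj⟩ := hQ ⟨r, hrR.2⟩
  have hj' : r ^ p ^ j = 1 := congrArg Subtype.val hj
  have hcop : Nat.Coprime (orderOf x) (p ^ j) :=
    Nat.Coprime.pow_right j ((Nat.Prime.coprime_iff_not_dvd hp).mpr hx).symm
  have h4 : orderOf r = 1 :=
    Nat.eq_one_of_dvd_coprimes hcop (orderOf_dvd_of_pow_eq_one h3) (orderOf_dvd_of_pow_eq_one hj')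
  have h5 : r = 1 := orderOf_eq_one_iff.mp h4
  rw [h5, mul_one] at e0
  calc q * x = (x * q * x⁻¹) * x := by rw [e0]
    _ = x * q := by group

/-- A stable block of a normal subgroup of `p`-power index is nilpotent if and only if the block
of `G` with the same idempotent is. -/
theorem nilpotent_iff_of_pindex (hM : IsPModular p M) [hN : N.Normal] {k : ℕ}
    (hidx : N.index = p ^ k) {c : Set (IrrCharacter N)} (hc : IsPBlock M c)
    {B : Set (IrrCharacter G)} (hB : IsPBlock M B)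
    (hBc : ∀ g : G, blockCoeff B g = subgroupBlockCoeff N c g) :
    IsNilpotentBlock p M c ↔ IsNilpotentBlock p M B := by
  have := IsPModular.isPrime hM
  have : Fact p.Prime := ⟨hM.1⟩
  have hp : p.Prime := hM.1
  have hβ : blockCoeff B = subgroupBlockCoeff N c := funext hBc
  have hsupp : ∀ g, g ∉ N → blockCoeff B g = 0 := by
    intro g hg
    rw [hBc, sbc_not_mem _ _ hg]
  constructor
  · intro hnil
    refine ⟨hB, fun Q e hQe x hxQ hxe hreg => ?_⟩
    have hxN : x ∈ N := mem_of_pRegular_of_index hidx hreg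
    obtain ⟨R, hRdef⟩ : ∃ R, R = Q ⊓ N := ⟨_, rfl⟩
    have hRQ : R ≤ Q := hRdef ▸ inf_le_left
    have hRN : R ≤ N := hRdef ▸ inf_le_right
    have hxR : x ∈ Subgroup.normalizer (R : Set G) := by
      rw [hRdef]
      exact (isConjSub_inf (isConjSub_of_mem_normalizer hxQ)).mem_normalizer
    obtain ⟨F, hF⟩ := exists_PLE hM ⟨Q, e⟩ hQe.1 _ R hRQ rfl
    have hRF : IsBrauerPairOf p M B R F := (PLE.isBrauerPairOf_iff hM hF hB).mp hQe
    have hxF : StabilizesBlock (cz R) F x := stabilizes_of_PLE hM hF hxQ hxe hxR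
    obtain ⟨f, hf, h, hh, hs⟩ := exists_pair_down hsupp hRF hxR hxF
    have hsR : h * x ∈ Subgroup.normalizer (R : Set G) :=
      Subgroup.mul_mem _ (Subgroup.centralizer_le_normalizer _ hh) hxR
    obtain ⟨a, m, hm, ham⟩ := Nat.exists_eq_pow_mul_and_not_dvd (orderOf_pos (h * x)).ne' p
      hp.ne_one
    obtain ⟨y, hy⟩ : ∃ y, y = (h * x) ^ p ^ a := ⟨_, rfl⟩
    have hyord : ¬ p ∣ orderOf y := by
      rw [hy, orderOf_pow_of_dvd (pow_ne_zero _ hp.ne_zero) (ham ▸ Dvd.intro _ rfl), ham,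
        Nat.mul_div_cancel_left _ (pow_pos hp.pos _)]
      exact hm
    have hyN : y ∈ N := mem_of_pRegular_of_index hidx hyord
    have hyR : y ∈ Subgroup.normalizer (R : Set G) := hy ▸ Subgroup.pow_mem _ hsR _
    have hys : StabilizesBlock (cz R ⊓ N) f y := by
      rw [hy]
      exact mem_stabSub.mp ((stabSub (cz R ⊓ N) f).pow_mem (mem_stabSub.mpr hs) _)
    have hR : IsCopy (R.subgroupOf N) R := isCopy_subgroupOf hRN
    obtain ⟨f', hf'⟩ := exists_upSet_eq (isCopy_cz_inf hR) f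
    have hpair : IsBrauerPairOf p M c (R.subgroupOf N) f' := by
      rw [isBrauerPairOf_iff_locPair hR hc, hf', ← hβ]
      exact hf
    have h1 := hnil.2 (R.subgroupOf N) f' hpair ⟨y, hyN⟩
      ((hR.mem_normalizer_iff ⟨y, hyN⟩).mpr hyR)
      ((stabilizesBlock_upSet_iff (isCopy_cz_inf hR) ⟨y, hyN⟩).mp (by rw [hf']; exact hys))
      (by
        unfold IsPRegular
        rw [← Subgroup.orderOf_coe]
        exact hyord)
    have hyc : y ∈ cz R := (hR.mem_centralizer_iff ⟨y, hyN⟩).mp h1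
    have hxconj : ∀ u ∈ R, x * u * x⁻¹ ∈ R :=
      fun u hu => (Subgroup.mem_normalizer_iff.mp hxR u).mp hu
    have hxc : x ∈ cz R := by
      refine mem_cz_of_conj_eq' hp hreg (a := h * x) (k := a) (hy ▸ hyc) hxconj fun u hu => ?_
      have h2 := (Subgroup.mem_centralizer_iff.mp hh) _ (hxconj u hu)
      calc x * u * x⁻¹ = (x * u * x⁻¹ * h) * h⁻¹ := by group
        _ = (h * (x * u * x⁻¹)) * h⁻¹ := by rw [h2]
        _ = h * x * u * (h * x)⁻¹ := by group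
    refine mem_cz_of_chain hp hQe.1.1 hreg hxc fun q hq => ?_
    have hq1 : x * q * x⁻¹ ∈ Q := (Subgroup.mem_normalizer_iff.mp hxQ q).mp hq
    have hq2 : q⁻¹ * (x * q * x⁻¹) ∈ Q := Q.mul_mem (Q.inv_mem hq) hq1
    refine ⟨?_, hq2⟩
    rw [hRdef]
    refine ⟨hq2, ?_⟩
    have e : q⁻¹ * (x * q * x⁻¹) = (q⁻¹ * x * q⁻¹⁻¹) * x⁻¹ := by group
    rw [e]
    exact N.mul_mem (hN.conj_mem x hxN q⁻¹) (N.inv_mem hxN)
  · intro hnil
    refine ⟨hc, fun R' f' hpair x' hx' hst' hreg' => ?_⟩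
    have hR : IsCopy R' (R'.map N.subtype) := isCopy_map R'
    have hf : LocPair p M N (blockCoeff B) (R'.map N.subtype) (upSet (isCopy_cz_inf hR) f') := by
      rw [hβ]
      exact (isBrauerPairOf_iff_locPair hR hc f').mp hpair
    obtain ⟨F, hF, hxF⟩ := exists_pair_up hM hidx hB hsupp hf
      ((hR.mem_normalizer_iff x').mp hx')
      ((stabilizesBlock_upSet_iff (isCopy_cz_inf hR) x').mpr hst')
    have h1 := hnil.2 _ F hF x' ((hR.mem_normalizer_iff x').mp hx') hxF (by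
      unfold IsPRegular at hreg' ⊢
      rw [Subgroup.orderOf_coe]
      exact hreg')
    exact (hR.mem_centralizer_iff x').mpr h1

end transport

end Cfsg.Agent.Lib.Helper24
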