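import Cfsg.Agent.Lib.Helper24.Knorr1
import Cfsg.Agent.Lib.Helper24.BrauerLocal
import Cfsg.Agent.Lib.Helper24.NilExt
import Cfsg.Agent.Lib.Helper6.Cover2
import Cfsg.Agent.Lib.Helper6.MinMax

/-!
# Knörr's theorem on defect groups of covering blocks
-/

set_option autoImplicit false
set_option linter.unusedSectionVars false
set_option linter.unusedSimpArgs false

namespace Cfsg.Agent.Lib.Helper24

open Cfsg Cfsg.Agent.Lib.Helper2 Cfsg.Agent.Lib.Helper6
open scoped ComplexConjugate Classical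

attribute [local instance] irrFintype

section

variable {G : Type*} [Group G] [Fintype G] {M : Ideal AlgInt} {p : ℕ} {N : Subgroup G} [N.Normal]

theorem eT_not_mem (θ : IrrCharacter N) {g : G} (hg : g ∉ N) : eT θ g = 0 :=
  sbc_not_mem _ _ hg

theorem eT_coe (θ : IrrCharacter N) (n : N) :
    eT θ n = (Nat.card N : ℂ)⁻¹ * ((θ : N → ℂ) 1 * conj ((θ : N → ℂ) n)) := by
  rw [eT, sbc_coe, blockCoeff_eq_coef, coef_apply, Finset.sum_eq_single θ]
  · simp
  · intro b _ hb
    simp [hb]
  · intro h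
    exact absurd (Finset.mem_univ θ) h

theorem sum_eT_mul (θ : IrrCharacter N) (χ : G → ℂ) :
    ∑ g, eT θ g * χ g = (θ : N → ℂ) 1 * classInner (fun n : N => χ n) (θ : N → ℂ) := by
  rw [sum_eq_sum_subgroup_of_support N (f := fun g => eT θ g * χ g)
    (fun g hg => by rw [eT_not_mem θ hg, zero_mul]), classInner, Finset.mul_sum, Finset.mul_sum]
  refine Finset.sum_congr rfl fun n _ => ?_
  rw [eT_coe]
  ring

theorem eT_ne_zero (θ : IrrCharacter N) : (eT θ : G → ℂ) ≠ 0 := by
  intro h
  have h1 : subgroupBlockCoeff N ({θ} : Set (IrrCharacter N)) = subgroupBlockCoeff N ∅ := by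
    rw [sbc_empty]; exact h
  have := sbc_injective N h1
  exact Set.singleton_ne_empty θ this

theorem conv_zero' (f : G → ℂ) : conv f 0 = 0 := by
  funext g
  simp [conv_apply]

theorem zero_conv' (f : G → ℂ) : conv 0 f = 0 := by
  funext g
  simp [conv_apply]

theorem eT_conv_ne_zero {B : Set (IrrCharacter G)} {χ : IrrCharacter G} (hχ : χ ∈ B)
    {θ : IrrCharacter N} (h : classInner (fun n : N => (χ : G → ℂ) n) (θ : N → ℂ) ≠ 0) :
    conv (eT θ) (coef (B.indicator 1)) ≠ 0 := by
  intro h0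
  have h1 : ∑ g, conv (eT θ) (coef (B.indicator 1)) g * (χ : G → ℂ) g = 0 := by
    rw [h0]; simp
  rw [sum_conv_mul] at h1
  have h2 : ∀ x : G, ∑ y, eT θ x * coef (B.indicator 1) y * (χ : G → ℂ) (x * y)
      = eT θ x * (χ : G → ℂ) x := by
    intro x
    have h3 := sum_class_mul_irr χ.2 (isClassFunction_coef (B.indicator 1)) x
    rw [om_coef, Set.indicator_of_mem hχ, Pi.one_apply, one_mul] at h3
    rw [← h3, Finset.mul_sum]
    refine Finset.sum_congr rfl fun y _ => ?_
    have h4 : (χ : G → ℂ) (x * y) = (χ : G → ℂ) (y * x) := by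
      have := irr_isClassFunction χ.2 (y * x) x
      rw [← this]
      group
    rw [h4]
    ring
  rw [Finset.sum_congr rfl (fun x _ => h2 x), sum_eT_mul] at h1
  exact (mul_ne_zero (irr_one_ne_zero θ.2) h) h1

theorem exists_over_of_conv_ne_zero {B : Set (IrrCharacter G)} {A : Set (IrrCharacter N)}
    (h : conv (subgroupBlockCoeff N A) (coef (B.indicator 1)) ≠ 0) :
    ∃ χ ∈ B, ∃ θ ∈ A, classInner (fun n : N => (χ : G → ℂ) n) (θ : N → ℂ) ≠ 0 := by
  by_contra hcon
  push Not at hcon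
  apply h
  have hinv := orbSet_indicator_conj N A
  have hcl := isClassFunction_extend_coef N (a := (orbSet N A).indicator 1) hinv
  have hf : conv (subgroupBlockCoeff N (orbSet N A)) (coef (B.indicator 1)) = 0 := by
    rw [sbc_eq_ext, eq_coef_om hcl, ← coef_mul]
    rw [← coef_zero]
    congr 1
    funext χ
    rw [Pi.mul_apply, Pi.zero_apply]
    by_cases hχ : χ ∈ B
    · obtain ⟨θ, hθ⟩ := Cfsg.Agent.Lib.Helper6.exists_constituent N χ.2
      rw [om_extend_coef N hinv χ.2 θ hθ, Set.indicator_of_notMem, zero_mul]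
      rintro ⟨g, hg⟩
      have h9 := hcon χ hχ _ hg
      rw [classInner_conjIrr N (irr_isClassFunction χ.2)] at h9
      exact hθ h9
    · rw [Set.indicator_of_notMem hχ, mul_zero]
  have hsub : A ∩ orbSet N A = A := by
    apply Set.inter_eq_left.mpr
    intro θ hθ
    exact ⟨1, by rw [conjIrr_one]; exact hθ⟩
  rw [← hsub, ← sbc_conv, conv_assoc, hf, conv_zero']

theorem cmp_conv_of_supp {E : G → ℂ} (hE : ∀ g, g ∉ N → E g = 0) (q : G ⧸ N) (F : G → ℂ) :
    cmp N q (conv E F) = conv E (cmp N q F) := by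
  funext g
  rw [cmp_apply, conv_apply, conv_apply]
  split_ifs with hq
  · refine Finset.sum_congr rfl fun x _ => ?_
    by_cases hx : x ∈ N
    · have h1 : (QuotientGroup.mk (x⁻¹ * g) : G ⧸ N) = q := by
        rw [QuotientGroup.mk_mul, QuotientGroup.mk_inv, (QuotientGroup.eq_one_iff x).mpr hx, hq]
        simp
      rw [cmp_apply, if_pos h1]
    · rw [hE x hx, zero_mul, zero_mul]
  · symm
    refine Finset.sum_eq_zero fun x _ => ?_
    by_cases hx : x ∈ N
    · have h1 : (QuotientGroup.mk (x⁻¹ * g) : G ⧸ N) ≠ q := by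
        rw [QuotientGroup.mk_mul, QuotientGroup.mk_inv, (QuotientGroup.eq_one_iff x).mpr hx]
        simpa using hq
      rw [cmp_apply, if_neg h1, mul_zero]
    · rw [hE x hx, zero_mul]

theorem cmp_zero (q : G ⧸ N) : cmp N q (0 : G → ℂ) = 0 := by
  funext g
  simp [cmp_apply]

theorem idem_coef_indicator (B : Set (IrrCharacter G)) :
    conv (coef (B.indicator 1)) (coef (B.indicator 1)) = coef (B.indicator 1) := by
  rw [← coef_mul]
  congr 1
  funext χ
  by_cases hχ : χ ∈ B
  · simp [hχ]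
  · simp [hχ]

/-- Every member of a covered block lies under the covering block. -/
theorem exists_over_of_cov [M.IsPrime] {B : Set (IrrCharacter G)} (hB : IsPBlock M B)
    {b : Set (IrrCharacter N)} (hb : IsPBlock M b) (hcov : Cov N B b) {θ' : IrrCharacter N}
    (hθ' : θ' ∈ b) :
    ∃ χ ∈ B, classInner (fun n : N => (χ : G → ℂ) n) (θ' : N → ℂ) ≠ 0 := by
  obtain ⟨χ, hχ, θ, hθ, hc⟩ := hcov
  have hcl := isClassFunction_coef (B.indicator 1)
  have hS : ∀ g, MemLocalRing M (coef (B.indicator 1) g) := mem_ZS.mp (IsPBlock.indicator_mem_ZS hB)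
  obtain ⟨q, y, hy, hu⟩ := exists_unit_component hcl hS (idem_coef_indicator B)
    (eT_conv_ne_zero hχ hc)
  have hz : Hg N M 1 (conv (cmp N q (coef (B.indicator 1))) y) :=
    ((hg_cmp hcl hS q).conv hy).congr (by group)
  have h1 := om_sub_memLocalIdeal θ'.2 θ.2 (IsPBlock.sameBlock hb hθ' hθ) hz.isClassFunction_rsN
    (fun n => hz.mem n)
  have h2 : om (θ' : N → ℂ) (rsN N (conv (cmp N q (coef (B.indicator 1))) y)) ≠ 0 := by
    intro h0
    rw [h0, zero_sub] at h1
    apply hu
    simpa using MemLocalIdeal.neg h1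
  have h3 : conv (subgroupBlockCoeff N {θ'}) (coef (B.indicator 1)) ≠ 0 := by
    intro h0
    have h4 : conv (eT θ') (cmp N q (coef (B.indicator 1))) = 0 := by
      rw [← cmp_conv_of_supp (fun g hg => eT_not_mem θ' hg)]
      show cmp N q (conv (subgroupBlockCoeff N {θ'}) _) = 0
      rw [h0, cmp_zero]
    have h5 : conv (eT θ') (conv (cmp N q (coef (B.indicator 1))) y) = 0 := by
      rw [← conv_assoc, h4, zero_conv']
    rw [hz.eq_ext, eT_conv_ext θ' hz.isClassFunction_rsN] at h5
    rcases smul_eq_zero.mp h5 with h6 | h6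
    · exact h2 h6
    · exact eT_ne_zero θ' h6
  obtain ⟨χ', hχ', θ'', hθ'', hc'⟩ := exists_over_of_conv_ne_zero h3
  rw [Set.mem_singleton_iff] at hθ''
  subst hθ''
  exact ⟨χ', hχ', hc'⟩

end

end Cfsg.Agent.Lib.Helper24
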