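import Cfsg.Agent.Lib.Helper24.Knorr2
import Cfsg.Agent.Lib.Helper24.BlockFusion

/-!
# Knörr's theorem on defect groups of covering blocks, continued
-/

set_option autoImplicit false
set_option linter.unusedSectionVars false
set_option linter.unusedSimpArgs false

namespace Cfsg.Agent.Lib.Helper24

open Cfsg Cfsg.Agent.Lib.Helper2 Cfsg.Agent.Lib.Helper6
open scoped ComplexConjugate Classical

attribute [local instance] irrFintype

section

variable {G : Type*} [Group G] [Fintype G] {M : Ideal AlgInt} {p : ℕ} {N : Subgroup G}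
  [hN : N.Normal]

theorem cj_inf_normal (t : G) (P : Subgroup G) : cj t P ⊓ N = cj t (P ⊓ N) := by
  ext x
  rw [Subgroup.mem_inf, mem_cj, mem_cj, Subgroup.mem_inf]
  constructor
  · rintro ⟨h1, h2⟩
    refine ⟨h1, ?_⟩
    have := hN.conj_mem x h2 t⁻¹
    simpa using this
  · rintro ⟨h1, h2⟩
    refine ⟨h1, ?_⟩
    have := hN.conj_mem _ h2 t
    convert this using 1
    group

/-- A class of `N` on which the central character of the covered block is a unit, whose defect
group lies in a defect group of the covering block. -/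
theorem exists_sylow_le_defect (hM : IsPModular p M) {B : Set (IrrCharacter G)}
    (hB : IsPBlock M B) {b : Set (IrrCharacter N)} (hb : IsPBlock M b) (hcov : Cov N B b) :
    ∃ (n : N) (S₀ : Subgroup N) (D : Subgroup G),
      (∀ θ ∈ b, ¬ MemLocalIdeal M (centralChar (θ : N → ℂ) n)) ∧ IsSylIn p (cen n) S₀ ∧
        IsDefectGroup p M B D ∧ S₀.map N.subtype ≤ D := by
  have := IsPModular.isPrime hM
  have : Fact p.Prime := ⟨hM.1⟩
  obtain ⟨χ, hχ, θ, hθ, hc⟩ := hcov
  have hcl := isClassFunction_coef (B.indicator 1)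
  have hS : ∀ g, MemLocalRing M (coef (B.indicator 1) g) :=
    mem_ZS.mp (IsPBlock.indicator_mem_ZS hB)
  obtain ⟨q, y, hy, hu⟩ := exists_unit_component hcl hS (idem_coef_indicator B)
    (eT_conv_ne_zero hχ hc)
  have hq := hg_cmp (N := N) hcl hS q
  have hz : Hg N M 1 (conv (cmp N q (coef (B.indicator 1))) y) := (hq.conv hy).congr (by group)
  rw [om_eq_sum_classes (irr_isClassFunction θ.2) hz.isClassFunction_rsN] at hu
  obtain ⟨C, hC⟩ : ∃ C : ConjClasses N, ¬ MemLocalIdeal M
      (rsN N (conv (cmp N q (coef (B.indicator 1))) y) (Quotient.out C) *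
        centralChar (θ : N → ℂ) (Quotient.out C)) := by
    by_contra hcon
    push Not at hcon
    exact hu (MemLocalIdeal.sum _ fun C _ => hcon C)
  obtain ⟨n, hn⟩ : ∃ n : N, n = Quotient.out C := ⟨_, rfl⟩
  rw [← hn] at hC
  have hw : ¬ MemLocalIdeal M (conv (cmp N q (coef (B.indicator 1))) y (n : G)) :=
    fun h => hC (MemLocalIdeal.mul_right h (centralChar_memLocalRing θ.2 n))
  have hcc : ¬ MemLocalIdeal M (centralChar (θ : N → ℂ) n) :=
    fun h => hC (MemLocalIdeal.mul_left (hz.mem n) h)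
  obtain ⟨S₀, hS₀⟩ := exists_isSylIn p (cen n)
  have hSp : IsPGroup p (S₀.map N.subtype) := hS₀.isPGroup.map _
  have hSN : S₀.map N.subtype ≤ N := by
    rintro _ ⟨s, _, rfl⟩
    exact s.2
  have hnS : (n : G) ∈ cz (S₀.map N.subtype) := by
    rw [Subgroup.mem_centralizer_iff]
    rintro _ ⟨s, hs, rfl⟩
    have h1 := Subgroup.mem_centralizer_singleton_iff.mp (hS₀.le hs)
    have h2 := congrArg (Subtype.val : N → G) h1
    simpa using h2
  obtain ⟨s, hs, hsum⟩ := conv_eq_sum_centralizer_add hM hSp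
    (fun u hu g => hq.inv u (hSN hu) g) (fun u hu g => hy.inv u (hSN hu) g) hq.mem hy.mem hnS
  obtain ⟨x, hx, hxu⟩ : ∃ x ∈ cz (S₀.map N.subtype),
      ¬ MemLocalIdeal M (coef (B.indicator 1) x) := by
    by_contra hcon
    push Not at hcon
    apply hw
    rw [hsum]
    refine MemLocalIdeal.add (MemLocalIdeal.sum _ fun x _ => ?_)
      (MemLocalIdeal.mul_right (memLocalIdeal_p hM) hs)
    split_ifs with hx
    · apply MemLocalIdeal.mul_right _ (hy.mem _)
      rw [cmp_apply]
      split_ifs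
      · exact hcon x hx
      · exact memLocalIdeal_zero
    · exact memLocalIdeal_zero
  obtain ⟨D, hD, hSD⟩ := exists_isDefectGroup_ge hM hB hxu hSp (le_cen_iff.mpr hx)
  exact ⟨n, S₀, D, not_memLocalIdeal_centralChar_of_exists hb ⟨θ, hθ, hcc⟩, hS₀, hD, hSD⟩

theorem card_map_subtype (S₀ : Subgroup N) : Nat.card (S₀.map N.subtype) = Nat.card S₀ :=
  Nat.card_congr (Subgroup.equivMapOfInjective S₀ N.subtype Subtype.coe_injective).symm.toEquiv

theorem pow_blockDefect_le_of_cov (hM : IsPModular p M) {B : Set (IrrCharacter G)}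
    (hB : IsPBlock M B) {b : Set (IrrCharacter N)} (hb : IsPBlock M b) (hcov : Cov N B b)
    {P : Subgroup G} (hP : IsDefectGroup p M B P) :
    p ^ blockDefect p b ≤ Nat.card (P ⊓ N : Subgroup G) := by
  have := IsPModular.isPrime hM
  have : Fact p.Prime := ⟨hM.1⟩
  obtain ⟨n, S₀, D, hcc, hS₀, hD, hSD⟩ := exists_sylow_le_defect hM hB hb hcov
  obtain ⟨θ, hθ⟩ := IsPBlock.nonempty hb
  have h2a := blockDefect_le_of_centralChar_unit hM hb hθ (hcc θ hθ)
  obtain ⟨t, rfl⟩ := isDefectGroup_exists_conj hM hB hP hD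
  have hSN : S₀.map N.subtype ≤ N := by
    rintro _ ⟨s, _, rfl⟩
    exact s.2
  have h3 : Nat.card (S₀.map N.subtype) ≤ Nat.card (cj t P ⊓ N : Subgroup G) :=
    Subgroup.card_le_of_le (le_inf hSD hSN)
  rw [cj_inf_normal, card_cj, card_map_subtype, hS₀.card] at h3
  exact le_trans (Nat.pow_le_pow_right hM.1.pos h2a) h3

theorem exists_stable_cov (hM : IsPModular p M) {B : Set (IrrCharacter G)}
    (hB : IsPBlock M B) {P : Subgroup G} (hP : IsDefectGroup p M B P) :
    ∃ c : Set (IrrCharacter N), IsPBlock M c ∧ (∀ x ∈ P, StabilizesBlock N c x) ∧ Cov N B c ∧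
      ∃ D : Subgroup N, IsDefectGroup p M c D ∧ (P ⊓ N).subgroupOf N ≤ D := by
  have := IsPModular.isPrime hM
  have : Fact p.Prime := ⟨hM.1⟩
  obtain ⟨g, hg, hsyl⟩ := isDefectGroup_iff.mp hP
  have hgu := (isDefectClass_iff.mp hg).2.1
  have hgP : g ∈ cz P := le_cen_iff.mp hsyl.le
  have hPp := hsyl.isPGroup
  have hcl := isClassFunction_coef (B.indicator 1)
  have hS : ∀ g, MemLocalRing M (coef (B.indicator 1) g) :=
    mem_ZS.mp (IsPBlock.indicator_mem_ZS hB)
  have hPK : ∀ u ∈ P, IsConjSub u N N := fun u _ =>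
    isConjSub_of_mem_normalizer (by rw [Subgroup.normalizer_eq_top]; exact Subgroup.mem_top u)
  let _ := blockAct M N P hPK
  have hsmul : ∀ (u : P) (e' : {e : Set (IrrCharacter N) // IsPBlock M e}),
      subgroupBlockCoeff N (u • e').1 = cjF (u : G) (subgroupBlockCoeff N e'.1) :=
    fun u e' => sbc_conjSet (hPK u u.2) e'.1
  obtain ⟨s, hs, hsum⟩ := sum_eq_sum_fixed_add hPp
    (MulAction.toPermHom P {e : Set (IrrCharacter N) // IsPBlock M e})
    (fun e' => conv (coef (B.indicator 1)) (subgroupBlockCoeff N e'.1) g) (by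
      intro u e'
      rw [MulAction.toPermHom_apply, MulAction.toPerm_apply, hsmul]
      conv_lhs => rw [← cjF_of_class hcl (u : G), ← cjF_conv, cjF_apply,
        conj_eq_of_mem_cz u.2 hgP]) (localSubring M).toAddSubgroup (by
      intro e'
      exact memLocalRing_conv hS (sbc_memLocalRing _ e'.2) g)
  have hsum' : ∑ e' : {e : Set (IrrCharacter N) // IsPBlock M e},
      conv (coef (B.indicator 1)) (subgroupBlockCoeff N e'.1) g = coef (B.indicator 1) g := by
    rw [← Finset.sum_apply, ← conv_sum', sum_sbc_blocks, conv_delta]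
  rw [hsum'] at hsum
  have hex : ∃ f : {e : Set (IrrCharacter N) // IsPBlock M e}, (∀ u : P, u • f = f) ∧
      ¬ MemLocalIdeal M (conv (coef (B.indicator 1)) (subgroupBlockCoeff N f.1) g) := by
    by_contra hcon
    push Not at hcon
    apply hgu
    rw [hsum]
    refine MemLocalIdeal.add (MemLocalIdeal.sum _ fun f _ => ?_)
      (MemLocalIdeal.mul_right (memLocalIdeal_p hM) hs)
    split_ifs with hfix
    · exact hcon f hfix
    · exact memLocalIdeal_zero
  obtain ⟨f, hfix, hne⟩ := hex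
  have hcj : ∀ x ∈ P, cjF x (subgroupBlockCoeff N f.1) = subgroupBlockCoeff N f.1 := by
    intro x hx
    rw [← hsmul ⟨x, hx⟩ f, hfix]
  have hst : ∀ x ∈ P, StabilizesBlock N f.1 x := by
    intro x hx
    rw [stabilizesBlock_iff]
    exact ⟨(hPK x hx).mem_normalizer, hcj x hx⟩
  have hcov : Cov N B f.1 := by
    apply exists_over_of_conv_ne_zero
    rw [← conv_comm_of_class hcl]
    intro h0
    apply hne
    rw [h0]
    exact memLocalIdeal_zero
  obtain ⟨s', hs', hsum2⟩ := conv_eq_sum_centralizer_add hM hPp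
    (fun u _ g => hcl g u) (fun u hu => (cjF_eq_iff u _).mp (hcj u hu)) hS
    (sbc_memLocalRing N f.2) hgP
  obtain ⟨x, hx, hxu⟩ : ∃ x ∈ cz P, ¬ MemLocalIdeal M (subgroupBlockCoeff N f.1 (x⁻¹ * g)) := by
    by_contra hcon
    push Not at hcon
    apply hne
    rw [hsum2]
    refine MemLocalIdeal.add (MemLocalIdeal.sum _ fun x _ => ?_)
      (MemLocalIdeal.mul_right (memLocalIdeal_p hM) hs')
    split_ifs with hx
    · exact MemLocalIdeal.mul_left (hS _) (hcon x hx)
    · exact memLocalIdeal_zero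
  have hxg : x⁻¹ * g ∈ cz (P ⊓ N) :=
    cz_anti inf_le_left ((cz P).mul_mem ((cz P).inv_mem hx) hgP)
  obtain ⟨D, hD, hle⟩ := exists_defectGroup_ge_of_unit hM f.2 hxu (hPp.to_le inf_le_left) hxg
  exact ⟨f.1, f.2, hst, hcov, D, hD, hle⟩

/-- **Knörr's theorem.** -/
theorem knorr (hM : IsPModular p M) {B : Set (IrrCharacter G)}
    (hB : IsPBlock M B) {P : Subgroup G} (hP : IsDefectGroup p M B P) :
    ∃ c : Set (IrrCharacter N), IsPBlock M c ∧ (∀ x ∈ P, StabilizesBlock N c x) ∧ Cov N B c ∧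
      IsDefectGroup p M c ((P ⊓ N).subgroupOf N) := by
  have : Fact p.Prime := ⟨hM.1⟩
  obtain ⟨c, hc, hst, hcov, D, hD, hle⟩ := exists_stable_cov (N := N) hM hB hP
  refine ⟨c, hc, hst, hcov, ?_⟩
  have h1 := pow_blockDefect_le_of_cov hM hB hc hcov hP
  rw [← IsDefectGroup.card_eq hM hc hD, ← card_subgroupOf_inf] at h1
  rw [Subgroup.eq_of_le_of_card_ge hle h1]
  exact hD

end

end Cfsg.Agent.Lib.Helper24
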