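import Cfsg.Agent.Lib.Helper24.Knorr3

/-!
# Knörr's theorem: prescribing the intersection with the normal subgroup
-/

set_option autoImplicit false
set_option linter.unusedSectionVars false
set_option linter.unusedSimpArgs false

namespace Cfsg.Agent.Lib.Helper24

open Cfsg Cfsg.Agent.Lib.Helper2 Cfsg.Agent.Lib.Helper6
open scoped ComplexConjugate Classical

attribute [local instance] irrFintype

section

variable {G : Type*} [Group G] [Fintype G] {M : Ideal AlgInt} {p : ℕ} {N : Subgroup G}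
  [hN : N.Normal]

/-- Two blocks covered by the same block are conjugate. -/
theorem exists_conjSet_eq_of_cov [M.IsPrime] {B : Set (IrrCharacter G)} (hB : IsPBlock M B)
    {b c : Set (IrrCharacter N)} (hb : IsPBlock M b) (hc : IsPBlock M c) (hcb : Cov N B b)
    (hcc : Cov N B c) : ∃ (g : G) (h : IsConjSub g N N), b = conjSet h c := by
  obtain ⟨χ', hχ', ψ, hψ, hne⟩ := hcc
  obtain ⟨g, hg⟩ := Covers.mem_orbSet N hB hb hcb hχ' hne
  have h : IsConjSub g N N :=
    isConjSub_of_mem_normalizer (by rw [Subgroup.normalizer_eq_top]; exact Subgroup.mem_top g)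
  refine ⟨g, h, ?_⟩
  have h1 : irrMap (conjIso h) ψ ∈ conjSet h c := (mem_blockMap _ _ _).mpr hψ
  have h2 : irrMap (conjIso h) ψ = conjIrr N g ψ := by
    apply Subtype.ext
    funext n
    rw [irrMap_apply, conjIrr_coe, conjFun_apply]
    rfl
  rw [h2] at h1
  exact IsPBlock.eq_of_mem_of_mem hb (isPBlock_conjSet h hc) hg h1

theorem blockDefect_eq_of_cov [M.IsPrime] {B : Set (IrrCharacter G)} (hB : IsPBlock M B)
    {b c : Set (IrrCharacter N)} (hb : IsPBlock M b) (hc : IsPBlock M c) (hcb : Cov N B b)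
    (hcc : Cov N B c) : blockDefect p b = blockDefect p c := by
  obtain ⟨g, h, rfl⟩ := exists_conjSet_eq_of_cov hB hb hc hcb hcc
  exact blockDefect_blockMap _ _

theorem exists_defectGroup_inf_eq (hM : IsPModular p M) {B : Set (IrrCharacter G)}
    (hB : IsPBlock M B) {b : Set (IrrCharacter N)} (hb : IsPBlock M b) (hcov : Cov N B b)
    {Q : Subgroup G} (hQN : Q ≤ N) (hQ : IsDefectGroup p M b (Q.subgroupOf N)) :
    ∃ P : Subgroup G, IsDefectGroup p M B P ∧ P ⊓ N = Q := by
  have := IsPModular.isPrime hM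
  have : Fact p.Prime := ⟨hM.1⟩
  obtain ⟨n, S₀, D, hcc, hS₀, hD, hSD⟩ := exists_sylow_le_defect hM hB hb hcov
  obtain ⟨c, hc, _, hcovc, hDc⟩ := knorr (N := N) hM hB hD
  have h1 := IsDefectGroup.card_eq hM hc hDc
  rw [← blockDefect_eq_of_cov hB hb hc hcov hcovc] at h1
  obtain ⟨θ, hθ⟩ := IsPBlock.nonempty hb
  have h2a := blockDefect_le_of_centralChar_unit hM hb hθ (hcc θ hθ)
  have hle : S₀ ≤ (D ⊓ N).subgroupOf N := by
    intro s hs
    rw [Subgroup.mem_subgroupOf]
    exact ⟨hSD ⟨s, hs, rfl⟩, s.2⟩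
  have hS₀eq : S₀ = (D ⊓ N).subgroupOf N := by
    apply Subgroup.eq_of_le_of_card_ge hle
    rw [h1, hS₀.card]
    exact Nat.pow_le_pow_right hM.1.pos h2a
  obtain ⟨h, hh, hsyl⟩ := isDefectGroup_iff.mp hQ
  obtain ⟨x, hx⟩ := exists_le_cj_of_unit hM hb hcc (isDefectClass_iff.mp hh).2.1 hsyl.isPGroup
    hsyl.le hS₀
  have hQeq : Q.subgroupOf N = cj x S₀ := by
    apply Subgroup.eq_of_le_of_card_ge hx
    rw [card_cj, hS₀eq, h1, IsDefectGroup.card_eq hM hb hQ]
  refine ⟨cj (x : G) D, isDefectGroup_cj hD x, ?_⟩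
  rw [cj_inf_normal]
  ext g
  rw [mem_cj]
  constructor
  · intro hg
    have hgN : g ∈ N := by
      have := hN.conj_mem _ hg.2 x
      convert this using 1
      group
    have h3 : (⟨g, hgN⟩ : N) ∈ cj x S₀ := by
      rw [mem_cj, hS₀eq, Subgroup.mem_subgroupOf]
      exact hg
    rw [← hQeq, Subgroup.mem_subgroupOf] at h3
    exact h3
  · intro hg
    have h3 : (⟨g, hQN hg⟩ : N) ∈ Q.subgroupOf N := by
      rw [Subgroup.mem_subgroupOf]
      exact hg
    rw [hQeq, mem_cj, hS₀eq, Subgroup.mem_subgroupOf] at h3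
    exact h3

end

end Cfsg.Agent.Lib.Helper24
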