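import Cfsg.Agent.Lib.Helper24.SylowAxiom
import Cfsg.Agent.Lib.Helper24.BlockFusion
import Cfsg.Agent.S0969
import Cfsg.Agent.S0941

/-!
# Characterisation of maximal Brauer pairs by a character of defect zero modulo `Z(Q)`
-/

set_option autoImplicit false

namespace Cfsg.Agent.Lib.Helper24

open Cfsg Cfsg.Agent.Lib.Helper2 Cfsg.Agent.Lib.Helper6
open scoped ComplexConjugate Classical

attribute [local instance] irrFintype

section

variable {G : Type*} [Group G]

theorem exists_mul_of_mem_sup_cz {Q : Subgroup G} {x : G} (hx : x ∈ Q ⊔ cz Q) :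
    ∃ q ∈ Q, ∃ c ∈ cz Q, x = q * c := by
  rw [Subgroup.sup_eq_closure] at hx
  induction hx using Subgroup.closure_induction with
  | mem y hy =>
    rcases hy with hy | hy
    · exact ⟨y, hy, 1, Subgroup.one_mem _, (mul_one y).symm⟩
    · exact ⟨1, Subgroup.one_mem _, y, hy, (one_mul y).symm⟩
  | one => exact ⟨1, Subgroup.one_mem _, 1, Subgroup.one_mem _, (mul_one 1).symm⟩
  | mul y z _ _ hy hz =>
    obtain ⟨q, hq, c, hc, rfl⟩ := hy
    obtain ⟨q', hq', c', hc', rfl⟩ := hz
    refine ⟨q * q', Q.mul_mem hq hq', c * c', (cz Q).mul_mem hc hc', ?_⟩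
    have h1 : q' * c = c * q' := Subgroup.mem_centralizer_iff.mp hc q' hq'
    calc q * c * (q' * c') = q * (c * q') * c' := by group
      _ = q * (q' * c) * c' := by rw [h1]
      _ = q * q' * (c * c') := by group
  | inv y _ hy =>
    obtain ⟨q, hq, c, hc, rfl⟩ := hy
    refine ⟨q⁻¹, Q.inv_mem hq, c⁻¹, (cz Q).inv_mem hc, ?_⟩
    have h1 : q * c = c * q := Subgroup.mem_centralizer_iff.mp hc q hq
    rw [h1, mul_inv_rev]

/-- `Z(Q)` as a subgroup of `C_G(Q)` -/
def zIn (Q : Subgroup G) : Subgroup (cz Q) := (Q ⊓ cz Q).subgroupOf (cz Q)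

theorem mem_zIn {Q : Subgroup G} (z : cz Q) : z ∈ zIn Q ↔ (z : G) ∈ Q := by
  rw [zIn, Subgroup.mem_subgroupOf, Subgroup.mem_inf]
  exact ⟨fun h => h.1, fun h => ⟨h, z.2⟩⟩

theorem zIn_le_center (Q : Subgroup G) : zIn Q ≤ Subgroup.center (cz Q) := by
  intro z hz
  rw [Subgroup.mem_center_iff]
  intro c
  apply Subtype.ext
  exact (Subgroup.mem_centralizer_iff.mp c.2 z ((mem_zIn z).mp hz)).symm

theorem zIn_normal (Q : Subgroup G) : (zIn Q).Normal := by
  constructor
  intro z hz c
  have h1 := Subgroup.mem_center_iff.mp (zIn_le_center Q hz) c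
  rw [h1, mul_inv_cancel_right]
  exact hz

theorem isPGroup_zIn {p : ℕ} {Q : Subgroup G} (hQ : IsPGroup p Q) : IsPGroup p (zIn Q) :=
  (hQ.to_le (inf_le_left : Q ⊓ cz Q ≤ Q)).comap_subtype

end

section

variable {G : Type*} [Group G] [Fintype G] {M : Ideal AlgInt} {p : ℕ}

theorem isDefectGroup_zIn_of_maximal (hM : IsPModular p M) {B : Set (IrrCharacter G)}
    {Q : Subgroup G} {e : Set (IrrCharacter (cz Q))} (hmax : IsMaximalBrauerPair p M B Q e) :
    IsDefectGroup p M e (zIn Q) := by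
  have he := hmax.1.1
  obtain ⟨D, hD, hDle⟩ := exists_defectGroup_ge_centralizer hM he
    (Relation.ReflTransGen.refl : SubpairLE p M Q e Q e)
  obtain ⟨g, hg⟩ := exists_overpair_of_defectGroup hM he (Subgroup.centralizer_le_normalizer _)
    (le_stabSub _ _) rfl hD
  have hRg : IsBrauerPairOf p M B _ g :=
    (isBrauerPairOf_iff_of_normalSubpair hM hg hmax.1.2.1).mpr hmax.1
  have hR := hmax.2 _ g hRg (Relation.ReflTransGen.single hg)
  have hDQ : D.map (cz Q).subtype ≤ Q := le_sup_right.trans hR.le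
  have hle : D ≤ zIn Q := by
    intro d hd
    rw [mem_zIn]
    exact hDQ ⟨d, hd, rfl⟩
  have : D = zIn Q := le_antisymm hle hDle
  rw [← this]
  exact hD

omit [Fintype G] in
theorem factorization_card_zIn (Q : Subgroup G) :
    Nat.card (zIn Q) = Nat.card (Q ⊓ cz Q : Subgroup G) := card_subgroupOf_inf Q (cz Q)

/-- the characterisation of maximal Brauer pairs -/
theorem exists_isMaximalBrauerPair_iff (hM : IsPModular p M) {Q : Subgroup G}
    {e : Set (IrrCharacter (cz Q))} (he : IsBrauerPair p M Q e) :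
    (∃ B : Set (IrrCharacter G), IsMaximalBrauerPair p M B Q e) ↔
      ∃ θ ∈ e, (∀ z : cz Q, (z : G) ∈ Q → (θ : cz Q → ℂ) z = (θ : cz Q → ℂ) 1) ∧
        (charDegree (θ : cz Q → ℂ)).factorization p +
          (Nat.card ↥(Q ⊓ cz Q)).factorization p = (Nat.card (cz Q)).factorization p ∧
        (∀ g : G, g ∈ Subgroup.normalizer (Q : Set G) → StabilizesBlock (cz Q) e g →
          (∃ k : ℕ, orderOf g = p ^ k) → g ∈ Q ⊔ cz Q) := by
  have := IsPModular.isPrime hM
  have : Fact p.Prime := ⟨hM.1⟩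
  have hp : p.Prime := hM.1
  have hZn := zIn_normal Q
  have hZp := isPGroup_zIn he.1
  have hcard : Nat.card (cz Q ⧸ zIn Q) * Nat.card (zIn Q) = Nat.card (cz Q) :=
    (Subgroup.card_eq_card_quotient_mul_card_subgroup (zIn Q)).symm
  have hfac : (Nat.card (cz Q ⧸ zIn Q)).factorization p + (Nat.card (zIn Q)).factorization p =
      (Nat.card (cz Q)).factorization p := by
    rw [← hcard, Nat.factorization_mul Nat.card_pos.ne' Nat.card_pos.ne']
    rfl
  constructor
  · rintro ⟨B, hmax⟩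
    have hZ := isDefectGroup_zIn_of_maximal hM hmax
    have hC : ∃ k : ℕ, (Subgroup.centralizer ((zIn Q : Subgroup (cz Q)) : Set (cz Q))).index =
        p ^ k := by
      refine ⟨0, ?_⟩
      rw [pow_zero, Subgroup.index_eq_one, Subgroup.centralizer_eq_top_iff_subset]
      exact zIn_le_center Q
    obtain ⟨χ, θ, hθ, hθχ⟩ := (Cfsg.Agent.S0941.result p M hM (zIn Q) hZp hC).2 e he.2
    refine ⟨θ, hθ, ?_, ?_, ?_⟩
    · intro z hz
      rw [hθχ, Function.comp_apply, Function.comp_apply,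
        (QuotientGroup.eq_one_iff z).mpr ((mem_zIn z).mpr hz)]
      rfl
    · rw [← factorization_card_zIn]
      have h1 : charDegree (θ : cz Q → ℂ) = charDegree (χ : cz Q ⧸ zIn Q → ℂ) := by
        unfold charDegree
        rw [hθχ]
        rfl
      have h2 : charDegree (θ : cz Q → ℂ) ∣ Nat.card (cz Q ⧸ zIn Q) := by
        rw [h1]
        exact degree_dvd_card χ.2
      have h3 : (charDegree (θ : cz Q → ℂ)).factorization p ≤
          (Nat.card (cz Q ⧸ zIn Q)).factorization p :=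
        (Nat.factorization_le_iff_dvd (charDegree_pos θ.2).ne' Nat.card_pos.ne').mpr h2 p
      have h4 := IsDefectGroup.card_eq hM he.2 hZ
      have h5 : (Nat.card (zIn Q)).factorization p = blockDefect p e := by
        rw [h4, hp.factorization_pow]
        simp
      have h6 : sInf ((fun χ : IrrCharacter (cz Q) =>
          (charDegree (χ : cz Q → ℂ)).factorization p) '' e) ≤
          (charDegree (θ : cz Q → ℂ)).factorization p := Nat.sInf_le ⟨θ, hθ, rfl⟩
      unfold blockDefect at h5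
      omega
    · intro g hgN hgst ⟨k, hk⟩
      exact mem_sup_of_orderOf_pow hM hmax hgN hgst hk
  · rintro ⟨θ, hθ, -, h2, h3⟩
    obtain ⟨B, hB, -⟩ := existsUnique_block_of_pair hM he
    have hdeg : (charDegree (θ : cz Q → ℂ)).factorization p = (zIn Q).index.factorization p := by
      rw [← factorization_card_zIn] at h2
      rw [Subgroup.index_eq_card]
      omega
    have hZ : IsDefectGroup p M e (zIn Q) := by
      have := (Cfsg.Agent.S0969.result p M hM (zIn Q) hZp (zIn_le_center Q) θ hdeg).1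
      rwa [← IsPBlock.eq_blockOf he.2 hθ] at this
    refine ⟨B, hB, fun R g hRg hle => ?_⟩
    by_contra hne
    obtain ⟨⟨R', g'⟩, hrel, hlt, -⟩ := PLE.exists_proper_step (a := ⟨Q, e⟩) (b := ⟨R, g⟩) hle
      (fun h => hne h.symm)
    have hrel' : IsNormalSubpair p M Q e R' g' := hrel
    have hlt' : Q < R' := hlt
    obtain ⟨u, hu, hunit⟩ := exists_unit_of_normalSubpair hM hrel'
    obtain ⟨D, hD, hRD⟩ := exists_defectGroup_ge_of_unit hM he.2 hunit hrel'.2.1.1 hu
    obtain ⟨x, hx⟩ := isDefectGroup_exists_conj hM he.2 hZ hD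
    have hDZ : D = zIn Q := by
      rw [hx]
      ext y
      rw [mem_cj]
      constructor
      · intro hy
        have h5 := hZn.conj_mem _ hy x
        have h6 : x * (x⁻¹ * y * x) * x⁻¹ = y := by group
        rwa [h6] at h5
      · intro hy
        have h5 := hZn.conj_mem _ hy x⁻¹
        rwa [inv_inv] at h5
    apply hlt'.not_ge
    intro r hr
    obtain ⟨k, hk⟩ := (IsPGroup.iff_orderOf.mp hrel'.2.1.1) ⟨r, hr⟩
    rw [Subgroup.orderOf_mk] at hk
    obtain ⟨q, hq, c, hc, rfl⟩ := exists_mul_of_mem_sup_cz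
      (h3 r (hrel'.2.2.2.1 hr) (hrel'.2.2.2.2.1 r hr) ⟨k, hk⟩)
    have hcR : c ∈ R' := by
      have h7 := R'.mul_mem (R'.inv_mem (hrel'.2.2.1 hq)) hr
      rwa [inv_mul_cancel_left] at h7
    have hcD : (⟨c, hc⟩ : cz Q) ∈ D := hRD (Subgroup.mem_subgroupOf.mpr hcR)
    rw [hDZ, mem_zIn] at hcD
    exact Q.mul_mem hq hcD

end

end Cfsg.Agent.Lib.Helper24
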