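import Cfsg.Agent.Lib.Helper24.PConstr1
import Cfsg.Agent.Lib.Helper8.Coprime

/-!
# Centralizers of `p`-subgroups in `p`-constrained groups (group theory)
-/

set_option autoImplicit false
set_option linter.unusedSectionVars false

namespace Cfsg.Agent.Lib.Helper24

open Cfsg Cfsg.Agent.Lib.Helper2 Cfsg.Agent.Lib.Helper6

section grp

variable {G : Type*} [Group G] {p : ℕ}

theorem exists_mul_of_mem_sup {K Q : Subgroup G} [K.Normal] {x : G} (hx : x ∈ K ⊔ Q) :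
    ∃ k ∈ K, ∃ q ∈ Q, x = k * q := by
  rw [← SetLike.mem_coe, Subgroup.normal_mul] at hx
  obtain ⟨n, hn, q, hq, rfl⟩ := hx
  exact ⟨n, hn, q, hq, rfl⟩

theorem cz_inf_sup_eq {K Q R : Subgroup G} [hK : K.Normal] (hKQ : Q ⊓ K = ⊥)
    (hRQ : R ≤ Subgroup.normalizer (Q : Set G)) :
    (cz R ⊓ K) ⊔ (cz R ⊓ Q) = cz R ⊓ (K ⊔ Q) := by
  apply le_antisymm
  · exact sup_le (inf_le_inf_left _ le_sup_left) (inf_le_inf_left _ le_sup_right)
  · rintro x ⟨hxR, hxL⟩
    obtain ⟨k, hk, q, hq, rfl⟩ := exists_mul_of_mem_sup hxL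
    have key : ∀ r ∈ R, r * k * r⁻¹ = k ∧ r * q * r⁻¹ = q := by
      intro r hr
      have h1 : r * (k * q) = k * q * r := Subgroup.mem_centralizer_iff.mp hxR r hr
      have h2 : r * q * r⁻¹ ∈ Q := (Subgroup.mem_normalizer_iff.mp (hRQ hr) q).mp hq
      have h3 : k⁻¹ * (r * k * r⁻¹) = q * (r * q * r⁻¹)⁻¹ := by
        have e : r * k * r⁻¹ = (r * (k * q)) * q⁻¹ * r⁻¹ := by group
        rw [e, h1]
        group
      have h4 : k⁻¹ * (r * k * r⁻¹) ∈ Q ⊓ K :=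
        ⟨by rw [h3]; exact Q.mul_mem hq (Q.inv_mem h2),
          K.mul_mem (K.inv_mem hk) (hK.conj_mem k hk r)⟩
      rw [hKQ, Subgroup.mem_bot] at h4
      constructor
      · exact (inv_mul_eq_one.mp h4).symm
      · rw [h4] at h3
        exact (mul_inv_eq_one.mp h3.symm).symm
    have hcz : ∀ {y : G}, (∀ r ∈ R, r * y * r⁻¹ = y) → y ∈ cz R := by
      intro y hy
      rw [Subgroup.mem_centralizer_iff]
      intro r hr
      calc r * y = (r * y * r⁻¹) * r := by group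
        _ = y * r := by rw [hy r hr]
    exact Subgroup.mul_mem_sup ⟨hcz fun r hr => (key r hr).1, hk⟩
      ⟨hcz fun r hr => (key r hr).2, hq⟩

theorem mem_of_centralizes_fixed [Finite G] [Fact p.Prime] {K Q R : Subgroup G} [hK : K.Normal]
    (hcop : ¬ p ∣ Nat.card K) (hQ : IsPGroup p Q) (hL : (K ⊔ Q).Normal)
    (hcent : cz Q ≤ K ⊔ Q) (hR : IsPGroup p R) (hRQ : R ≤ Subgroup.normalizer (Q : Set G))
    {x : G} (hxR : x ∈ cz R) (hxQ : x ∈ cz (cz R ⊓ Q)) (hx : ¬ p ∣ orderOf x) : x ∈ K := by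
  have hp : p.Prime := Fact.out
  have hKQ : Q ⊓ K = ⊥ := inf_eq_bot_of_pGroup hcop hQ
  have hmapL : (K ⊔ Q).map (QuotientGroup.mk' K) = Q.map (QuotientGroup.mk' K) := by
    rw [Subgroup.map_sup, QuotientGroup.map_mk'_self, bot_sup_eq]
  have hnorm : (Q.map (QuotientGroup.mk' K)).Normal := by
    rw [← hmapL]
    exact hL.map _ (QuotientGroup.mk'_surjective K)
  have hAB := Cfsg.Agent.Lib.Helper8.thompson_AxB (G := G ⧸ K) (p := p)
    (P := Q.map (QuotientGroup.mk' K)) (B := R.map (QuotientGroup.mk' K))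
    (a := QuotientGroup.mk' K x) (hQ.map _) (hR.map _)
    (by rw [Subgroup.normalizer_eq_top]; exact le_top)
    (by rw [Subgroup.normalizer_eq_top]; exact Subgroup.mem_top _)
    (by
      apply Nat.Coprime.coprime_dvd_left (orderOf_map_dvd (QuotientGroup.mk' K) x)
      exact ((Nat.Prime.coprime_iff_not_dvd hp).mpr hx).symm)
    (by
      rintro _ ⟨r, hr, rfl⟩
      rw [← map_mul, ← map_mul, Subgroup.mem_centralizer_iff.mp hxR r hr])
    (by
      rintro _ ⟨q, hq, rfl⟩ hcomm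
      have hqR : q ∈ cz R := by
        rw [Subgroup.mem_centralizer_iff]
        intro r hr
        have h1 := hcomm _ ⟨r, hr, rfl⟩
        rw [← map_mul, ← map_mul] at h1
        have h2 : (q * r)⁻¹ * (r * q) ∈ K := QuotientGroup.eq.mp h1
        have h3 : r * q * r⁻¹ ∈ Q := (Subgroup.mem_normalizer_iff.mp (hRQ hr) q).mp hq
        have h4 : q⁻¹ * (r * q * r⁻¹) ∈ Q ⊓ K := by
          refine ⟨Q.mul_mem (Q.inv_mem hq) h3, ?_⟩
          have h5 := hK.conj_mem _ h2 r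
          have e : r * ((q * r)⁻¹ * (r * q)) * r⁻¹ = r * r⁻¹ * q⁻¹ * (r * q * r⁻¹) := by group
          rw [e, mul_inv_cancel, one_mul] at h5
          exact h5
        rw [hKQ, Subgroup.mem_bot] at h4
        have h6 : r * q * r⁻¹ = q := (inv_mul_eq_one.mp h4).symm
        calc r * q = (r * q * r⁻¹) * r := by group
          _ = q * r := by rw [h6]
      rw [← map_mul, ← map_mul, Subgroup.mem_centralizer_iff.mp hxQ q ⟨hqR, hq⟩])
  -- a conjugate by an element of `K`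
  have hsyl := isSylIn_sup_of_coprime hcop hQ
  have hsyl2 : IsSylIn p (K ⊔ Q) (cj x Q) := by
    have h1 := isSylIn_cj hsyl x
    have h2 : cj x (K ⊔ Q) = K ⊔ Q := by
      ext g
      rw [mem_cj]
      constructor
      · intro h
        have := hL.conj_mem _ h x
        have e : x * (x⁻¹ * g * x) * x⁻¹ = g := by group
        rwa [e] at this
      · intro h
        have := hL.conj_mem _ h x⁻¹
        rwa [inv_inv] at this
    rwa [h2] at h1
  obtain ⟨c, hc, hcQ⟩ := isSylIn_exists_conj hsyl hsyl2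
  obtain ⟨k, hk, q₀, hq₀, rfl⟩ := exists_mul_of_mem_sup hc
  have hcQ' : cj x Q = cj k Q := by
    rw [hcQ, ← cj_cj, cj_of_mem hq₀]
  have hy : k⁻¹ * x ∈ cz Q := by
    rw [Subgroup.mem_centralizer_iff]
    intro q hq
    have h1 : x * q * x⁻¹ ∈ cj k Q := by
      rw [← hcQ', mem_cj]
      have e : x⁻¹ * (x * q * x⁻¹) * x = q := by group
      rwa [e]
    rw [mem_cj] at h1
    have h2 := hAB _ ⟨q, hq, rfl⟩
    rw [← map_mul, ← map_mul] at h2
    have h3 : (q * x)⁻¹ * (x * q) ∈ K := QuotientGroup.eq.mp h2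
    have h4 : q⁻¹ * (k⁻¹ * (x * q * x⁻¹) * k) ∈ Q ⊓ K := by
      refine ⟨Q.mul_mem (Q.inv_mem hq) h1, ?_⟩
      have h5 : x * ((q * x)⁻¹ * (x * q)) * x⁻¹ ∈ K := hK.conj_mem _ h3 x
      have e : x * ((q * x)⁻¹ * (x * q)) * x⁻¹ = q⁻¹ * (x * q * x⁻¹) := by group
      rw [e] at h5
      -- q⁻¹ k⁻¹ (xqx⁻¹) k = (q⁻¹ k⁻¹ q) (q⁻¹ x q x⁻¹) k
      have e2 : q⁻¹ * (k⁻¹ * (x * q * x⁻¹) * k) =
          (q⁻¹ * k⁻¹ * q⁻¹⁻¹) * (q⁻¹ * (x * q * x⁻¹)) * k := by group
      rw [e2]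
      exact K.mul_mem (K.mul_mem (hK.conj_mem _ (K.inv_mem hk) _) h5) hk
    rw [hKQ, Subgroup.mem_bot] at h4
    have h6 : k⁻¹ * (x * q * x⁻¹) * k = q := (inv_mul_eq_one.mp h4).symm
    calc q * (k⁻¹ * x) = (k⁻¹ * (x * q * x⁻¹) * k) * (k⁻¹ * x) := by rw [h6]
      _ = k⁻¹ * x * q := by group
  have hxL : x ∈ K ⊔ Q := by
    have h1 := (K ⊔ Q).mul_mem (Subgroup.mem_sup_left hk : k ∈ K ⊔ Q) (hcent hy)
    rwa [mul_inv_cancel_left] at h1
  exact mem_of_pRegular_of_mem_sup hQ hxL hx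

end grp

end Cfsg.Agent.Lib.Helper24
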