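import Mathlib
import Cfsg.Agent.Lib.Helper13.Ito
import Cfsg.Agent.Lib.Helper13.Gallagher
import Cfsg.Agent.Lib.Helper21.Basic
import Cfsg.Agent.Lib.Helper24.CharInt
import Cfsg.Agent.Lib.Helper24.PConstr3
import Cfsg.Agent.Lib.Helper6.SylIn
import Cfsg.Agent.Lib.Lead.GlaubL

/-!
# Groups with a normal `p`-complement and one character degree divisible by `p`
-/

set_option autoImplicit false
set_option linter.unusedSectionVars false

namespace Cfsg.Agent.Lib.Helper24

open Cfsg Cfsg.Agent.Lib.Helper2 Cfsg.Agent.Lib.Helper6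
open scoped ComplexConjugate Classical

attribute [local instance] irrFintype

section onedeg

variable {G : Type*} [Group G] [Finite G] {p : ℕ} [Fact p.Prime]

theorem quotient_comm_of_unique_degree (N : Subgroup G) [hNn : N.Normal]
    {k : ℕ} (hidx : N.index = p ^ k) (hnil : ¬ Group.IsNilpotent G)
    (huniq : ∀ χ ψ : IrrCharacter G, p ∣ charDegree (χ : G → ℂ) → p ∣ charDegree (ψ : G → ℂ) →
      χ = ψ) :
    ∀ x y : G ⧸ N, x * y = y * x := by
  cases nonempty_fintype G
  have hp : p.Prime := Fact.out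
  by_contra hcon
  have h1 : ∃ χ : IrrCharacter (G ⧸ N), (χ : G ⧸ N → ℂ) 1 ≠ 1 := by
    by_contra h
    push Not at h
    exact hcon (Cfsg.Agent.Lib.Helper13.comm_of_all_linear h)
  obtain ⟨χb, hχb⟩ := h1
  have hβ : IsIrrCharacter G (fun g => (χb : G ⧸ N → ℂ) (QuotientGroup.mk' N g)) :=
    IsIrrCharacter.inflate (QuotientGroup.mk' N) (QuotientGroup.mk'_surjective N) χb.2
  obtain ⟨β, hβdef⟩ : ∃ β : IrrCharacter G,
      (β : G → ℂ) = fun g => (χb : G ⧸ N → ℂ) (QuotientGroup.mk' N g) := ⟨⟨_, hβ⟩, rfl⟩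
  have hβN : ∀ n ∈ N, (β : G → ℂ) n = (β : G → ℂ) 1 := by
    intro n hn
    rw [hβdef]
    have : QuotientGroup.mk' N n = 1 := (QuotientGroup.eq_one_iff n).mpr hn
    simp only [this, map_one]
  have hβ1 : (β : G → ℂ) 1 = (χb : G ⧸ N → ℂ) 1 := by
    rw [hβdef]
    simp only [map_one]
  have hβ0 : (β : G → ℂ) 1 ≠ 0 := irr_one_ne_zero β.2
  have hdb : charDegree (β : G → ℂ) = charDegree (χb : G ⧸ N → ℂ) := by
    apply Cfsg.Agent.Lib.Helper13.charDegree_eq_of_cast
    rw [hβ1, charDegree_cast (IsIrrCharacter.isCharacter χb.2)]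
  have hpβ : p ∣ charDegree (β : G → ℂ) := by
    rw [hdb]
    have h2 : charDegree (χb : G ⧸ N → ℂ) ∣ p ^ k := by
      rw [← hidx, Subgroup.index_eq_card]
      exact degree_dvd_card χb.2
    obtain ⟨j, -, hj⟩ := (Nat.dvd_prime_pow hp).mp h2
    rcases Nat.eq_zero_or_pos j with rfl | hj0
    · exfalso
      apply hχb
      rw [← charDegree_cast (IsIrrCharacter.isCharacter χb.2), hj]
      simp
    · rw [hj]
      exact dvd_pow_self p hj0.ne'
  -- every irreducible character of `N` is trivial
  have htriv : ∀ (θ : IrrCharacter N) (n : N), (θ : N → ℂ) n = 1 := by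
    intro θ
    obtain ⟨χ, hχ⟩ := exists_irr_over N.subtype N.subtype_injective θ
    by_cases hpχ : p ∣ charDegree (χ : G → ℂ)
    · have e : χ = β := huniq _ _ hpχ hpβ
      subst e
      have e2 : ((χ : G → ℂ) ∘ N.subtype) = (χ : G → ℂ) 1 • (1 : N → ℂ) := by
        funext n
        simp only [Function.comp_apply, Subgroup.coe_subtype, Pi.smul_apply, Pi.one_apply,
          smul_eq_mul, mul_one]
        exact hβN n n.2
      rw [e2, classInner_smul_left,
        classInner_irr (Cfsg.Agent.Lib.Lead.Glaub.one_irr N) θ.2] at hχ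
      by_cases h3 : (1 : N → ℂ) = (θ : N → ℂ)
      · intro n
        rw [← h3]
        rfl
      · rw [if_neg h3, mul_zero] at hχ
        exact absurd rfl hχ
    · obtain ⟨e, he1, he2⟩ := Cfsg.Agent.Lib.Helper13.ratio_dvd_index N χ.2 θ.2 hχ
      rw [hidx] at he2
      obtain ⟨j, -, hj⟩ := (Nat.dvd_prime_pow hp).mp he2
      have hd : charDegree (χ : G → ℂ) = e * charDegree (θ : N → ℂ) := by
        apply Cfsg.Agent.Lib.Helper13.charDegree_eq_of_cast
        rw [he1, ← charDegree_cast (IsIrrCharacter.isCharacter θ.2)]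
        push_cast
        rfl
      have hj0 : j = 0 := by
        by_contra hj0
        apply hpχ
        rw [hd, hj]
        exact Dvd.dvd.mul_right (dvd_pow_self p hj0) _
      rw [hj0, pow_zero] at hj
      rw [hj, one_mul] at hd
      have hres := Cfsg.Agent.Lib.Lead.Glaub.res_eq_of_degree_eq N χ θ hχ hd
      have hχN : IsIrrCharacter N (fun n : N => (χ : G → ℂ) n) := by
        have : (fun n : N => (χ : G → ℂ) n) = (θ : N → ℂ) := hres
        rw [this]
        exact θ.2
      have hg := (Cfsg.Agent.Lib.Helper13.gallagher (N := N) χ.2 hχN).mapsTo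
        (show (β : G → ℂ) ∈ {β : G → ℂ | IsIrrCharacter G β ∧ ∀ n ∈ N, β n = β 1} from
          ⟨β.2, hβN⟩)
      have hirr : IsIrrCharacter G ((β : G → ℂ) * (χ : G → ℂ)) := hg.1
      have hpd : p ∣ charDegree ((β : G → ℂ) * (χ : G → ℂ)) := by
        have : charDegree ((β : G → ℂ) * (χ : G → ℂ)) =
            charDegree (β : G → ℂ) * charDegree (χ : G → ℂ) := by
          apply Cfsg.Agent.Lib.Helper13.charDegree_eq_of_cast
          rw [Pi.mul_apply, ← charDegree_cast (IsIrrCharacter.isCharacter β.2),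
            ← charDegree_cast (IsIrrCharacter.isCharacter χ.2)]
          push_cast
          rfl
        rw [this]
        exact Dvd.dvd.mul_right hpβ _
      have e3 : (⟨_, hirr⟩ : IrrCharacter G) = β := huniq _ _ hpd hpβ
      intro n
      have e4 : ((β : G → ℂ) * (χ : G → ℂ)) n = (β : G → ℂ) n :=
        congrFun (congrArg Subtype.val e3) n
      rw [Pi.mul_apply, hβN n n.2] at e4
      have e5 : (χ : G → ℂ) n = (θ : N → ℂ) n := congrFun hres n
      rw [e5] at e4
      exact mul_left_cancel₀ hβ0 (by rw [e4, mul_one])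
  have hNbot : N = ⊥ := by
    rw [Subgroup.eq_bot_iff_forall]
    intro n hn
    by_contra hne
    have h3 := sum_degree_mul_irr (G := N) ⟨n, hn⟩
    rw [if_neg (by
      intro h
      exact hne (congrArg Subtype.val h))] at h3
    simp only [htriv, mul_one, Finset.sum_const, Finset.card_univ, nsmul_eq_mul] at h3
    have : Nonempty (IrrCharacter N) := ⟨⟨_, Cfsg.Agent.Lib.Lead.Glaub.one_irr N⟩⟩
    have h4 : Fintype.card (IrrCharacter N) ≠ 0 := Fintype.card_ne_zero
    exact h4 (by exact_mod_cast h3)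
  apply hnil
  have hcard : Nat.card G = p ^ k := by
    rw [← Subgroup.card_mul_index N, hNbot, Subgroup.card_bot, one_mul, ← hidx, hNbot]
  exact (IsPGroup.of_card hcard).isNilpotent

theorem isSylIn_of_card_le {D L : Subgroup G}
    (hcard : Nat.card D = p ^ (Nat.card G).factorization p) (h : D ≤ L) : IsSylIn p L D := by
  have hp : p.Prime := Fact.out
  rw [isSylIn_iff]
  refine ⟨h, ?_⟩
  rw [hcard]
  congr 1
  apply le_antisymm
  · rw [← Nat.Prime.pow_dvd_iff_le_factorization hp Nat.card_pos.ne', ← hcard]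
    exact Subgroup.card_dvd_of_le h
  · exact (Nat.factorization_le_iff_dvd Nat.card_pos.ne' Nat.card_pos.ne').mpr
      (Subgroup.card_subgroup_dvd_card L) p

theorem card_classes_not_dvd (P : Sylow p G)
    (hH : Subgroup.normalizer ((P : Subgroup G) : Set G) ≤
      Subgroup.centralizer ((P : Subgroup G) : Set G)) :
    Nat.card (ConjClasses (Subgroup.normalizer ((P : Subgroup G) : Set G))) =
      Nat.card {C : ConjClasses G // ¬ p ∣ Nat.card C.carrier} := by
  obtain ⟨H, hHdef⟩ : ∃ H : Subgroup G, H = Subgroup.normalizer ((P : Subgroup G) : Set G) :=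
    ⟨_, rfl⟩
  rw [← hHdef] at hH ⊢
  have hcar : ∀ x : G, Nat.card (ConjClasses.mk x).carrier =
      (Subgroup.centralizer ({x} : Set G)).index := by
    intro x
    rw [Cfsg.Agent.Lib.Helper21.index_centralizer_eq_ncard_carrier, Nat.card_coe_set_eq]
  have hPle : ∀ h ∈ H, (P : Subgroup G) ≤ Subgroup.centralizer ({h} : Set G) := by
    intro h hh x hx
    rw [Subgroup.mem_centralizer_singleton_iff]
    exact (Subgroup.mem_centralizer_iff.mp (hH hh) x hx)
  have hwd : ∀ C : ConjClasses H, ¬ p ∣ Nat.card (ConjClasses.map H.subtype C).carrier := by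
    intro C
    obtain ⟨h, rfl⟩ := ConjClasses.mk_surjective C
    show ¬ p ∣ Nat.card (ConjClasses.mk (h : G)).carrier
    rw [hcar]
    intro hdvd
    exact P.not_dvd_index (dvd_trans hdvd (Subgroup.index_dvd_of_le (hPle h h.2)))
  apply Nat.card_congr
  refine Equiv.ofBijective (fun C => ⟨ConjClasses.map H.subtype C, hwd C⟩) ⟨?_, ?_⟩
  · intro C₁ C₂ hC
    obtain ⟨h, rfl⟩ := ConjClasses.mk_surjective C₁
    obtain ⟨h', rfl⟩ := ConjClasses.mk_surjective C₂
    have h1 : ConjClasses.mk (h : G) = ConjClasses.mk (h' : G) := congrArg Subtype.val hC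
    rw [ConjClasses.mk_eq_mk_iff_isConj, isConj_iff] at h1
    obtain ⟨g, hg⟩ := h1
    have s1 : IsSylIn p (Subgroup.centralizer ({(h' : G)} : Set G)) (P : Subgroup G) :=
      isSylIn_of_card_le P.card_eq_multiplicity (hPle h' h'.2)
    have s2 : IsSylIn p (Subgroup.centralizer ({(h' : G)} : Set G)) (cj g (P : Subgroup G)) := by
      apply isSylIn_of_card_le
      · rw [card_cj]
        exact P.card_eq_multiplicity
      · rw [← hg, centralizer_singleton_cj]
        exact cj_mono (hPle h h.2)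
    obtain ⟨c, hc, hcP⟩ := isSylIn_exists_conj s2 s1
    rw [cj_cj] at hcP
    have hcg : c * g ∈ H := by
      rw [hHdef, Subgroup.mem_normalizer_iff]
      intro y
      constructor
      · intro hy
        rw [hcP, mem_cj]
        have : (c * g)⁻¹ * (c * g * y * (c * g)⁻¹) * (c * g) = y := by group
        rw [this]
        exact hy
      · intro hy
        rw [hcP, mem_cj] at hy
        have : (c * g)⁻¹ * (c * g * y * (c * g)⁻¹) * (c * g) = y := by group
        rw [this] at hy
        exact hy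
    rw [ConjClasses.mk_eq_mk_iff_isConj, isConj_iff]
    refine ⟨⟨c * g, hcg⟩, Subtype.ext ?_⟩
    rw [Subgroup.mem_centralizer_singleton_iff] at hc
    show c * g * (h : G) * (c * g)⁻¹ = h'
    calc c * g * (h : G) * (c * g)⁻¹ = c * (g * h * g⁻¹) * c⁻¹ := by group
      _ = c * h' * c⁻¹ := by rw [hg]
      _ = h' := by rw [hc]; group
  · rintro ⟨C, hC⟩
    obtain ⟨x, rfl⟩ := ConjClasses.mk_surjective C
    rw [hcar] at hC
    obtain ⟨Q, hQ, -⟩ := Cfsg.Agent.Lib.Helper21.exists_sylow_le_of_not_dvd_index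
      (Subgroup.centralizer ({x} : Set G)) hC 1 (Subgroup.one_mem _) 0 (by simp)
    obtain ⟨g, hg⟩ := MulAction.exists_smul_eq G P Q
    have hy : g⁻¹ * x * g ∈ Subgroup.centralizer ((P : Subgroup G) : Set G) := by
      rw [Subgroup.mem_centralizer_iff]
      intro u hu
      have h1 : g * u * g⁻¹ ∈ (Q : Subgroup G) := by
        rw [← hg, Sylow.coe_subgroup_smul]
        have := Subgroup.smul_mem_pointwise_smul u (MulAut.conj g) (P : Subgroup G) hu
        simpa [MulAut.smul_def] using this
      have h2 := Subgroup.mem_centralizer_singleton_iff.mp (hQ h1)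
      calc u * (g⁻¹ * x * g) = g⁻¹ * (g * u * g⁻¹ * x) * g := by group
        _ = g⁻¹ * (x * (g * u * g⁻¹)) * g := by rw [h2]
        _ = g⁻¹ * x * g * u := by group
    have hyH : g⁻¹ * x * g ∈ H := by
      rw [hHdef]
      exact Subgroup.centralizer_le_normalizer _ hy
    refine ⟨ConjClasses.mk ⟨_, hyH⟩, Subtype.ext ?_⟩
    show ConjClasses.mk (g⁻¹ * x * g) = ConjClasses.mk x
    rw [ConjClasses.mk_eq_mk_iff_isConj, isConj_iff]
    exact ⟨g, by group⟩

end onedeg

end Cfsg.Agent.Lib.Helper24
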