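import Cfsg.Agent.Lib.Helper24.StabMeet
import Cfsg.Agent.Lib.Helper24.FongPSol

/-!
# Invariant characters of normal `p'`-subgroups in `p`-constrained situations: one block
-/

set_option autoImplicit false
set_option linter.unusedSectionVars false

namespace Cfsg.Agent.Lib.Helper24

open Cfsg Cfsg.Agent.Lib.Helper2 Cfsg.Agent.Lib.Helper6
open scoped ComplexConjugate Classical

attribute [local instance] irrFintype

section grp

variable {G : Type*} [Group G] {p : ℕ}

theorem inf_eq_bot_of_pGroup [Finite G] [Fact p.Prime] {N A : Subgroup G}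
    (hcop : ¬ p ∣ Nat.card N) (hA : IsPGroup p A) : A ⊓ N = ⊥ := by
  apply Disjoint.eq_bot
  apply Subgroup.disjoint_of_coprime_natCard
  obtain ⟨n, hn⟩ := IsPGroup.iff_card.mp hA
  rw [hn]
  exact Nat.Coprime.pow_left _ ((Nat.Prime.coprime_iff_not_dvd Fact.out).mpr hcop)

theorem relIndex_eq_card_of_pGroup [Finite G] [Fact p.Prime] {N A : Subgroup G}
    (hcop : ¬ p ∣ Nat.card N) (hA : IsPGroup p A) : N.relIndex A = Nat.card A := by
  have h2 := card_inf_mul_relIndex N A
  rwa [inf_eq_bot_of_pGroup hcop hA, Subgroup.card_bot, one_mul] at h2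

theorem card_sup_of_coprime [Finite G] [Fact p.Prime] {N A : Subgroup G} [N.Normal]
    (hcop : ¬ p ∣ Nat.card N) (hA : IsPGroup p A) :
    Nat.card (N ⊔ A : Subgroup G) = Nat.card N * Nat.card A := by
  have h3 := card_inf_mul_relIndex N (N ⊔ A)
  rw [inf_eq_right.mpr (le_sup_left : N ≤ N ⊔ A), Subgroup.relIndex_sup_left,
    relIndex_eq_card_of_pGroup hcop hA] at h3
  exact h3.symm

theorem isSylIn_sup_of_coprime [Finite G] [Fact p.Prime] {N A : Subgroup G} [N.Normal]
    (hcop : ¬ p ∣ Nat.card N) (hA : IsPGroup p A) : IsSylIn p (N ⊔ A) A := by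
  rw [isSylIn_iff]
  refine ⟨le_sup_right, ?_⟩
  obtain ⟨n, hn⟩ := IsPGroup.iff_card.mp hA
  have hp : p.Prime := Fact.out
  rw [card_sup_of_coprime hcop hA, Nat.factorization_mul Nat.card_pos.ne' Nat.card_pos.ne', hn,
    Finsupp.add_apply, Nat.factorization_eq_zero_of_not_dvd hcop, zero_add,
    hp.factorization_pow, Finsupp.single_eq_same]

end grp

section blk

variable {X : Type*} [Group X] [Fintype X] {M : Ideal AlgInt} {p : ℕ}

theorem constituent_of_om_sbc {N : Subgroup X} [N.Normal] {θ : IrrCharacter N}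
    (hst : ∀ x : X, StabilizesBlock N {θ} x) {χ : IrrCharacter X}
    (h : om (χ : X → ℂ) (subgroupBlockCoeff N {θ}) = 1) :
    classInner ((χ : X → ℂ) ∘ N.subtype) (θ : N → ℂ) ≠ 0 := by
  obtain ⟨θ', hθ'⟩ := Cfsg.Agent.Lib.Helper6.exists_constituent N χ.2
  have h1 : om (χ : X → ℂ) (subgroupBlockCoeff N {θ}) =
      ({θ} : Set (IrrCharacter N)).indicator (1 : IrrCharacter N → ℂ) θ' := om_sbc_of_over hst hθ'
  rw [h] at h1
  have h2 : θ' = θ := by
    by_contra hne
    rw [Set.indicator_of_notMem (fun hc => hne (Set.mem_singleton_iff.mp hc))] at h1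
    exact one_ne_zero h1
  rw [← h2]
  exact hθ'

/-- `N ≤ K` normal, `K / N` a `p`-group, `c` stable, `b` over `c`: `K = N (P ∩ K)` -/
theorem sup_defect_inf_eq (hM : IsPModular p M) {N K : Subgroup X} [N.Normal] [K.Normal]
    (hNK : N ≤ K) {k : ℕ} (hidx : N.relIndex K = p ^ k)
    {c : Set (IrrCharacter N)} (hc : IsPBlock M c) (hst : ∀ x : X, StabilizesBlock N c x)
    {b : Set (IrrCharacter X)} (hb : IsPBlock M b)
    (hov : ∀ ψ ∈ b, om (ψ : X → ℂ) (subgroupBlockCoeff N c) = 1)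
    {P : Subgroup X} (hP : IsDefectGroup p M b P) : N ⊔ (P ⊓ K) = K := by
  have := IsPModular.isPrime hM
  have : Fact p.Prime := ⟨hM.1⟩
  have hn : (N.subgroupOf K).Normal := inferInstance
  obtain ⟨F₀, hF₀, hF₀c⟩ := exists_block_of_stable (T := K) hNK hc (fun x _ => hst x)
    (by
      intro F hF g hg
      by_cases hgK : g ∈ K
      · rw [sbc_mem _ _ hgK, blockCoeff_eq_coef]
        apply coef_indicator_eq_zero hM hF
        by_contra hcon
        exact hg (Subgroup.mem_subgroupOf.mp (mem_of_index_pow hM.1 (N.subgroupOf K) hidx hcon))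
      · exact sbc_not_mem _ _ hgK)
  obtain ⟨f, hf, -, ⟨ψ, hψ, φ, hφ, hcon⟩, hdef⟩ := knorr (N := K) hM hb hP
  have hφ0 : φ ∈ F₀ := by
    have h1 := om_eq_of_constituent K.subtype K.subtype_injective ψ.2 φ hcon
      (isClassFunction_sbc_of_stable hst) (by
        intro t ht
        apply sbc_not_mem
        intro htN
        exact ht ⟨⟨t, hNK htN⟩, rfl⟩)
    rw [hov ψ hψ] at h1
    have h2 : (subgroupBlockCoeff N c) ∘ K.subtype = coef (F₀.indicator 1) := by
      ext x
      rw [Function.comp_apply, ← hF₀c, ← blockCoeff_eq_coef]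
      exact sbc_coe K F₀ x
    rw [h2, om_coef] at h1
    by_contra hcon2
    rw [Set.indicator_of_notMem hcon2] at h1
    exact one_ne_zero h1
  obtain rfl : f = F₀ := IsPBlock.eq_of_mem_of_mem hf hF₀ hφ hφ0
  have h3 := sup_defectGroup_eq_of_relIndex hM hNK
    (by rw [Subgroup.normalizer_eq_top]; exact le_top) hidx hc (fun x _ => hst x) hF₀c hdef
  rwa [Subgroup.map_subgroupOf_eq_of_le inf_le_right] at h3

/-- every block over an invariant `θ` has a defect group containing a conjugate of `Q` -/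
theorem exists_cj_le_defect (hM : IsPModular p M) {N Q : Subgroup X} [N.Normal]
    (hcop : ¬ p ∣ Nat.card N) (hQ : IsPGroup p Q) (hL : (N ⊔ Q).Normal) (θ : IrrCharacter N)
    (hst : ∀ x : X, StabilizesBlock N {θ} x) {b : Set (IrrCharacter X)} (hb : IsPBlock M b)
    (hov : ∀ ψ ∈ b, om (ψ : X → ℂ) (subgroupBlockCoeff N {θ}) = 1)
    {P : Subgroup X} (hP : IsDefectGroup p M b P) : ∃ t, cj t Q ≤ P := by
  have : Fact p.Prime := ⟨hM.1⟩
  obtain ⟨n, hn⟩ := IsPGroup.iff_card.mp hQ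
  have hidx : N.relIndex (N ⊔ Q) = p ^ n := by
    rw [Subgroup.relIndex_sup_left, relIndex_eq_card_of_pGroup hcop hQ, hn]
  have h1 := sup_defect_inf_eq hM (le_sup_left : N ≤ N ⊔ Q) hidx
    (isPBlock_singleton_of_not_dvd hM hcop θ) hst hb hov hP
  have hPp : IsPGroup p (P ⊓ (N ⊔ Q) : Subgroup X) :=
    (isDefectGroup_iff.mp hP).choose_spec.2.isPGroup.to_le inf_le_left
  have h2 := isSylIn_sup_of_coprime hcop hPp
  rw [h1] at h2
  obtain ⟨c, -, hc⟩ := isSylIn_exists_conj (isSylIn_sup_of_coprime hcop hQ) h2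
  exact ⟨c, by rw [← hc]; exact inf_le_left⟩

theorem sameBlock_of_constrained (hM : IsPModular p M) {N Q : Subgroup X} [hN : N.Normal]
    (hcop : ¬ p ∣ Nat.card N) (hQ : IsPGroup p Q) (hL : (N ⊔ Q).Normal)
    (hreg : ∀ x ∈ cz Q, ¬ p ∣ orderOf x → x ∈ N) (θ : IrrCharacter N)
    (hst : ∀ x : X, StabilizesBlock N {θ} x) {χ χ' : IrrCharacter X}
    (h : om (χ : X → ℂ) (subgroupBlockCoeff N {θ}) = 1)
    (h' : om (χ' : X → ℂ) (subgroupBlockCoeff N {θ}) = 1) :
    SameBlock M (χ : X → ℂ) (χ' : X → ℂ) := by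
  have := IsPModular.isPrime hM
  have : Fact p.Prime := ⟨hM.1⟩
  have hc := isPBlock_singleton_of_not_dvd hM hcop θ
  have key : ∀ χ : IrrCharacter X, om (χ : X → ℂ) (subgroupBlockCoeff N {θ}) = 1 →
      ∀ x, x ∉ N → ¬ p ∣ orderOf x → MemLocalIdeal M (centralChar (χ : X → ℂ) x) := by
    intro χ hχ x hx hxp
    by_contra hcon
    have hb : IsPBlock M (blockOf M (χ : X → ℂ)) := ⟨χ, rfl⟩
    have hcov : Cov N (blockOf M (χ : X → ℂ)) {θ} :=
      ⟨χ, mem_blockOf_self χ, θ, rfl, constituent_of_om_sbc hst hχ⟩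
    obtain ⟨P, hP⟩ := exists_isDefectGroup hM hb
    obtain ⟨t, ht⟩ := exists_cj_le_defect hM hcop hQ hL θ hst hb
      (fun ψ hψ => om_sbc_eq_one_of_cov hc hst hb hcov hψ) hP
    obtain ⟨g, hg, hsyl⟩ := isDefectGroup_iff.mp hP
    obtain ⟨y, hy, hyP⟩ := exists_conj_mem_centralizer hM hb
      (not_memLocalIdeal_centralChar_of_exists hb ⟨χ, mem_blockOf_self χ, hcon⟩)
      (isDefectClass_iff.mp hg).2.1 hsyl.isPGroup (le_cen_iff.mp hsyl.le)
    -- `y` centralizes `cj t Q`
    have hy2 : t⁻¹ * y * t ∈ cz Q := by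
      rw [Subgroup.mem_centralizer_iff]
      intro q hq
      have h1 : t * q * t⁻¹ ∈ P := ht (mem_cj.mpr (by
        have : t⁻¹ * (t * q * t⁻¹) * t = q := by group
        rwa [this]))
      have h2 := Subgroup.mem_centralizer_iff.mp hyP _ h1
      calc q * (t⁻¹ * y * t) = t⁻¹ * ((t * q * t⁻¹) * y) * t := by group
        _ = t⁻¹ * (y * (t * q * t⁻¹)) * t := by rw [h2]
        _ = t⁻¹ * y * t * q := by group
    obtain ⟨s, rfl⟩ := isConj_iff.mp hy
    have hord : orderOf (t⁻¹ * (s * x * s⁻¹) * t) = orderOf x := by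
      have h0 : t⁻¹ * (s * x * s⁻¹) * t = (MulAut.conj (t⁻¹ * s)) x := by
        rw [MulAut.conj_apply]
        group
      rw [h0]
      exact (MulAut.conj (t⁻¹ * s)).orderOf_eq x
    have h3 := hreg _ hy2 (by rw [hord]; exact hxp)
    apply hx
    have h4 := hN.conj_mem _ h3 (t⁻¹ * s)⁻¹
    have h5 : (t⁻¹ * s)⁻¹ * (t⁻¹ * (s * x * s⁻¹) * t) * (t⁻¹ * s)⁻¹⁻¹ = x := by group
    rwa [h5] at h4
  apply sameBlock_of_pRegular hM
  intro g hg
  by_cases hgN : g ∈ N
  · have hs : ∀ t, t ∉ Set.range N.subtype → classInd g t = 0 := by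
      intro x hx
      rw [classInd_apply, if_neg]
      intro hc
      obtain ⟨t, rfl⟩ := isConj_iff.mp hc
      exact hx ⟨⟨_, hN.conj_mem _ hgN _⟩, rfl⟩
    rw [← om_classInd (irr_isClassFunction χ.2), ← om_classInd (irr_isClassFunction χ'.2),
      om_eq_of_constituent N.subtype N.subtype_injective χ.2 θ (constituent_of_om_sbc hst h)
        (isClassFunction_classInd g) hs,
      om_eq_of_constituent N.subtype N.subtype_injective χ'.2 θ (constituent_of_om_sbc hst h')
        (isClassFunction_classInd g) hs, sub_self]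
    exact memLocalIdeal_zero
  · exact MemLocalIdeal.sub (key χ h g hgN hg) (key χ' h' g hgN hg)

end blk

end Cfsg.Agent.Lib.Helper24
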