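import Cfsg.Agent.Lib.Helper24.PIndex
import Cfsg.Agent.Lib.Helper24.Knorr4
import Cfsg.Agent.Lib.Helper24.FongReynolds2

/-!
# The stabilizer of a covered block meets a `p`-power overgroup in the normal subgroup
-/

set_option autoImplicit false
set_option linter.unusedSectionVars false

namespace Cfsg.Agent.Lib.Helper24

open Cfsg Cfsg.Agent.Lib.Helper2 Cfsg.Agent.Lib.Helper6
open scoped ComplexConjugate Classical

attribute [local instance] irrFintype

section

variable {G : Type*} [Group G] [Fintype G] {M : Ideal AlgInt} {p : ℕ}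

/-- stable case -/
theorem le_of_stable_of_defect_le (hM : IsPModular p M) {N K : Subgroup G} [N.Normal] [K.Normal]
    (hNK : N ≤ K) {k : ℕ} (hidx : N.relIndex K = p ^ k)
    {c : Set (IrrCharacter N)} (hc : IsPBlock M c) (hst : ∀ x : G, StabilizesBlock N c x)
    {b : Set (IrrCharacter G)} (hb : IsPBlock M b)
    (hov : ∀ ψ ∈ b, om (ψ : G → ℂ) (subgroupBlockCoeff N c) = 1)
    {P : Subgroup G} (hP : IsDefectGroup p M b P) (hPN : P ≤ N) : K ≤ N := by
  have := IsPModular.isPrime hM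
  have : Fact p.Prime := ⟨hM.1⟩
  have hn : (N.subgroupOf K).Normal := inferInstance
  obtain ⟨F₀, hF₀, hF₀c⟩ := exists_block_of_stable (T := K) hNK hc (fun x _ => hst x)
    (by
      intro F hF g hg
      by_cases hgK : g ∈ K
      · rw [sbc_mem _ _ hgK, blockCoeff_eq_coef]
        apply coef_indicator_eq_zero hM hF
        by_contra hcon
        exact hg (Subgroup.mem_subgroupOf.mp (mem_of_index_pow hM.1 (N.subgroupOf K) hidx hcon))
      · exact sbc_not_mem _ _ hgK)
  obtain ⟨f, hf, -, ⟨ψ, hψ, φ, hφ, hcon⟩, hdef⟩ := knorr (N := K) hM hb hP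
  have hφ0 : φ ∈ F₀ := by
    have h1 := om_eq_of_constituent K.subtype K.subtype_injective ψ.2 φ hcon
      (isClassFunction_sbc_of_stable hst) (by
        intro t ht
        apply sbc_not_mem
        intro htN
        exact ht ⟨⟨t, hNK htN⟩, rfl⟩)
    rw [hov ψ hψ] at h1
    have h2 : (subgroupBlockCoeff N c) ∘ K.subtype = coef (F₀.indicator 1) := by
      ext x
      rw [Function.comp_apply, ← hF₀c, ← blockCoeff_eq_coef]
      exact sbc_coe K F₀ x
    rw [h2, om_coef] at h1
    by_contra hcon2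
    rw [Set.indicator_of_notMem hcon2] at h1
    exact one_ne_zero h1
  obtain rfl : f = F₀ := IsPBlock.eq_of_mem_of_mem hf hF₀ hφ hφ0
  have h3 := sup_defectGroup_eq_of_relIndex hM hNK
    (by rw [Subgroup.normalizer_eq_top]; exact le_top) hidx hc (fun x _ => hst x) hF₀c hdef
  rw [← h3]
  refine sup_le le_rfl ?_
  rintro _ ⟨x, hx, rfl⟩
  exact hPN (Subgroup.mem_subgroupOf.mp hx).1

theorem stab_inf_eq (hM : IsPModular p M) {N L : Subgroup G} [N.Normal] [L.Normal]
    (hNL : N ≤ L) {k : ℕ} (hidx : (N.subgroupOf L).index = p ^ k)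
    {B : Set (IrrCharacter G)} (hB : IsPBlock M B)
    {c : Set (IrrCharacter N)} (hc : IsPBlock M c) (hcov : Cov N B c)
    {D : Subgroup G} (hD : IsDefectGroup p M B D) (hDN : D ≤ N)
    {T : Subgroup G} (hT : ∀ x : G, x ∈ T ↔ StabilizesBlock N c x) : T ⊓ L = N := by
  have := IsPModular.isPrime hM
  have : Fact p.Prime := ⟨hM.1⟩
  have hNT : N ≤ T := fun g hg => (hT g).mpr (le_stabSub N c hg)
  apply le_antisymm _ (le_inf hNT hNL)
  obtain ⟨b, hb, ⟨ψ₀, hψ₀, hov⟩, hind⟩ := (fongReynolds hc hT hNT).2.2 B hB hcov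
  obtain ⟨P, hP⟩ := exists_isDefectGroup hM hb
  have hPB := (fongReynolds_defect hM hc hT hNT hb ⟨ψ₀, hψ₀, hov⟩ hind).1 P hP
  obtain ⟨t, ht⟩ := isDefectGroup_exists_conj hM hB hD hPB
  have hPN : P.map T.subtype ≤ N := by
    rw [ht]
    intro x hx
    have h1 := (inferInstance : N.Normal).conj_mem _ (hDN (mem_cj.mp hx)) t
    have h2 : t * (t⁻¹ * x * t) * t⁻¹ = x := by group
    rwa [h2] at h1
  obtain ⟨k', hk'⟩ : ∃ k', (N.subgroupOf T).relIndex (L.subgroupOf T) = p ^ k' := by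
    rw [← Subgroup.inf_subgroupOf_right L T, Subgroup.relIndex_subgroupOf inf_le_right]
    have h1 : N.relIndex (L ⊓ T) ∣ p ^ k := by
      rw [← hidx]
      exact Dvd.intro _ (Subgroup.relIndex_mul_relIndex N (L ⊓ T) L (le_inf hNL hNT) inf_le_left)
    obtain ⟨i, -, hi⟩ := (Nat.dvd_prime_pow hM.1).mp h1
    exact ⟨i, hi⟩
  have hcopy : IsCopy (N.subgroupOf T) N := isCopy_subgroupOf hNT
  obtain ⟨c', rfl⟩ := exists_upSet_eq hcopy c
  have hres : resT T (subgroupBlockCoeff N (upSet hcopy c')) =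
      subgroupBlockCoeff (N.subgroupOf T) c' := by
    ext x
    exact sbc_upSet_coe hcopy c' x
  have key := le_of_stable_of_defect_le (G := T) (N := N.subgroupOf T) (K := L.subgroupOf T)
    hM (fun x hx => Subgroup.mem_subgroupOf.mpr (hNL (Subgroup.mem_subgroupOf.mp hx))) hk' ((isPBlock_upSet_iff hcopy).mp hc)
    (fun x => (stabilizesBlock_upSet_iff hcopy x).mp ((hT x).mp x.2)) hb
    (by
      intro ψ hψ
      rw [← hres]
      exact om_res_eq_one_of_sameBlock (stabIdem_sbc hc hT) (sbc_memLocalRing N hc)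
        (IsPBlock.sameBlock hb hψ₀ hψ) ((overT_iff hc hT hNT ψ₀).mp hov)) hP
    (by
      intro x hx
      exact Subgroup.mem_subgroupOf.mpr (hPN ⟨x, hx, rfl⟩))
  intro x hx
  exact Subgroup.mem_subgroupOf.mp (key (show (⟨x, hx.1⟩ : T) ∈ L.subgroupOf T from
    Subgroup.mem_subgroupOf.mpr hx.2))

end

end Cfsg.Agent.Lib.Helper24
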